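import Cfsg.Agent.H938.Bad
import Cfsg.Agent.Lib.VonDyck

/-!
# Criteria with subgroups `A_5`

* `not_isSolvable_five` : `a² = b³ = (ab)⁵ = 1`, `a ≠ 1`: `⟨a, b⟩` is insoluble;
* `bad_of_five_comm` : an element `≠ 1` centralising such a subgroup;
* `bad_of_five_norm` : an element of order four normalising such a subgroup.
-/

set_option autoImplicit false
set_option linter.unusedSectionVars false

namespace Cfsg.Agent.H938

open Subgroup Cfsg.Agent.Lib.VonDyck

variable {G : Type*} [Group G] {a b x : G}

theorem isSimpleGroup_alt_five : IsSimpleGroup (alternatingGroup (Fin 5)) :=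
  alternatingGroup.isSimpleGroup (by simp)

theorem not_isSolvable_five (ha : a ^ 2 = 1) (hb : b ^ 3 = 1) (hab : (a * b) ^ 5 = 1) (ha1 : a ≠ 1) :
    ¬ Group.IsSolvable (closure {a, b} : Subgroup G) := by
  intro hs
  obtain ⟨e⟩ := closure_equiv_alternatingFive ha hb hab (Or.inl ha1)
  have h1 : Group.IsSolvable (alternatingGroup (Fin 5)) :=
    Group.isSolvable_of_isSolvable_injective (f := e.symm.toMonoidHom) e.symm.injective
  have h2 : IsSimpleGroup (alternatingGroup (Fin 5)) := isSimpleGroup_alt_five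
  have h3 := Group.IsSolvable.commutator_lt_top_of_nontrivial (alternatingGroup (Fin 5))
  have h4 : _root_.commutator (alternatingGroup (Fin 5)) = ⊥ := by
    rcases h2.eq_bot_or_eq_top_of_normal (_root_.commutator (alternatingGroup (Fin 5))) inferInstance with h | h
    · exact h
    · exact absurd h h3.ne
  rw [commutator_eq_bot_iff_center_eq_top] at h4
  have h5 : ∀ g h : alternatingGroup (Fin 5), g * h = h * g := by
    intro g h
    have : h ∈ center (alternatingGroup (Fin 5)) := by rw [h4]; trivial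
    exact mem_center_iff.1 this g
  revert h5
  decide +kernel

/-- **A subgroup `A_5` with a nontrivial centralizer.** -/
theorem bad_of_five_comm [IsSimpleGroup G] (ha : a ^ 2 = 1) (hb : b ^ 3 = 1) (hab : (a * b) ^ 5 = 1) (ha1 : a ≠ 1)
    (hx : x ≠ 1) (hxa : x * a = a * x) (hxb : x * b = b * x) : Bad G := by
  have hc : ∀ l ∈ (closure {a, b} : Subgroup G), x * l = l * x := by
    intro l hl
    have h1 : (closure {a, b} : Subgroup G) ≤ centralizer {x} := by
      rw [closure_le]
      rintro y (rfl | rfl)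
      · exact mem_centralizer_singleton_iff.2 hxa.symm
      · exact mem_centralizer_singleton_iff.2 hxb.symm
    exact (mem_centralizer_singleton_iff.1 (h1 hl)).symm
  refine bad_of_commute_one (not_isSolvable_five ha hb hab ha1) hc ?_
  intro hxL
  obtain ⟨e⟩ := closure_equiv_alternatingFive ha hb hab (Or.inl ha1)
  have h1 : ∀ g : alternatingGroup (Fin 5), e ⟨x, hxL⟩ * g = g * e ⟨x, hxL⟩ := by
    intro g
    obtain ⟨y, rfl⟩ := e.surjective g
    rw [← map_mul, ← map_mul]
    congr 1
    exact Subtype.ext (hc y y.2)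
  have h2 : ∀ z : alternatingGroup (Fin 5), (∀ g : alternatingGroup (Fin 5), z * g = g * z) → z = 1 := by
    decide +kernel
  have h3 := h2 _ h1
  rw [map_eq_one_iff e e.injective] at h3
  exact hx (congrArg Subtype.val h3)

/-- **A subgroup `A_5` normalised by an element of order four.** -/
theorem bad_of_five_norm [IsSimpleGroup G] (ha : a ^ 2 = 1) (hb : b ^ 3 = 1) (hab : (a * b) ^ 5 = 1) (ha1 : a ≠ 1)
    (hx4 : x ^ 4 = 1) (hx2 : x ^ 2 ≠ 1)
    (hx : x ∈ normalizer ((closure {a, b} : Subgroup G) : Set G)) : Bad G := by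
  obtain ⟨e⟩ := closure_equiv_alternatingFive ha hb hab (Or.inl ha1)
  have hxL : x ∉ (closure {a, b} : Subgroup G) := by
    intro hxL
    have h2 : ∀ z : alternatingGroup (Fin 5), z ^ 4 = 1 → z ^ 2 = 1 := by decide +kernel
    have h3 := h2 (e ⟨x, hxL⟩) (by
      rw [← map_pow, map_eq_one_iff e e.injective]
      exact Subtype.ext hx4)
    rw [← map_pow, map_eq_one_iff e e.injective] at h3
    exact hx2 (congrArg Subtype.val h3)
  refine bad_of_mem_normalizer (not_isSolvable_five ha hb hab ha1) ?_ hx hxL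
  intro h
  rw [h] at hxL
  exact hxL (mem_top x)

/-- A finite subgroup generated by two elements is normalised by `x` if `x` conjugates the generators into it. -/
theorem mem_normalizer_closure [Finite G] (h1 : x * a * x⁻¹ ∈ (closure {a, b} : Subgroup G))
    (h2 : x * b * x⁻¹ ∈ (closure {a, b} : Subgroup G)) : x ∈ normalizer ((closure {a, b} : Subgroup G) : Set G) := by
  have h3 : (closure {a, b} : Subgroup G) ≤ (closure {a, b} : Subgroup G).comap (MulAut.conj x).toMonoidHom := by
    refine (closure_le _).2 ?_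
    rintro y (rfl | rfl)
    · exact h1
    · exact h2
  apply mem_normalizer_fintype
  intro n hn
  exact h3 hn

/-- the data of a subgroup `S_5` -/
def SFive (M : Type*) [Group M] : Prop :=
  ∃ a b d : M, a ^ 2 = 1 ∧ b ^ 3 = 1 ∧ (a * b) ^ 5 = 1 ∧ a ≠ 1 ∧ d * d = a ∧
    d * b * d⁻¹ = a * b * a * b⁻¹ * a * b

theorem bad_of_sFive {G : Type*} [Group G] [Finite G] [IsSimpleGroup G] (h : SFive G) :
    Bad G := by
  obtain ⟨a, b, d, ha, hb, hab, ha1, hd, hdb⟩ := h
  have hma : a ∈ (Subgroup.closure {a, b} : Subgroup G) := Subgroup.subset_closure (by simp)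
  have hmb : b ∈ (Subgroup.closure {a, b} : Subgroup G) := Subgroup.subset_closure (by simp)
  refine bad_of_five_norm ha hb hab ha1 (x := d) ?_ ?_ (mem_normalizer_closure ?_ ?_)
  · have : d ^ 4 = (d * d) ^ 2 := by rw [← pow_two, ← pow_mul]
    rw [this, hd, ha]
  · rw [pow_two, hd]; exact ha1
  · have : d * a * d⁻¹ = a := by rw [← hd]; group
    rw [this]; exact hma
  · rw [hdb]
    exact mul_mem (mul_mem (mul_mem (mul_mem (mul_mem hma hmb) hma) (inv_mem hmb)) hma) hmb

theorem SFive.map {M N : Type*} [Group M] [Group N] (f : M →* N) (hf : Function.Injective f) (h : SFive M) :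
    SFive N := by
  obtain ⟨a, b, d, ha, hb, hab, ha1, hd, hdb⟩ := h
  refine ⟨f a, f b, f d, ?_, ?_, ?_, ?_, ?_, ?_⟩
  · rw [← map_pow, ha, map_one]
  · rw [← map_pow, hb, map_one]
  · rw [← map_mul, ← map_pow, hab, map_one]
  · exact fun e => ha1 (hf (e.trans (map_one f).symm))
  · rw [← map_mul, hd]
  · rw [← map_inv, ← map_mul, ← map_mul, hdb]
    simp only [map_mul, map_inv]

end Cfsg.Agent.H938
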