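import Cfsg.Agent.H938.ParInsol
import Cfsg.Agent.S0041

/-!
# Rank one groups: soluble only with a cyclic root group

`isCyclic_of_solvable` : `B < P`, `P` soluble, `E ≤ B` abelian meeting the conjugates `g B g⁻¹`, `g ∈ P \ B`, trivially:
`E` is cyclic.
-/

set_option autoImplicit false
set_option linter.unusedSectionVars false

namespace Cfsg.Agent.H938

open Subgroup

variable {G : Type*} [Group G]

/-- **A soluble group `P > B` with an abelian subgroup `E ≤ B` semiregular outside the base point.** -/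
theorem isCyclic_of_solvable [Finite G] {P B E : Subgroup G} (hP : Group.IsSolvable P) (hBP : B ≤ P) (hPB : ¬ P ≤ B)
    (hEB : E ≤ B) (hE : ∀ a ∈ E, ∀ b ∈ E, a * b = b * a) (hreg : ∀ g ∈ P, g ∉ B → ∀ x ∈ E, g⁻¹ * x * g ∈ B → x = 1) :
    IsCyclic E := by
  obtain ⟨M, hMP, hMB, hM1, hM2⟩ := exists_normal_of_solvable hP hPB
  -- `R = B M`, `D = M ⊓ B`
  set R := B ⊔ M with hR
  have hRP : R ≤ P := sup_le hBP hMP
  set D := M ⊓ B with hD
  have hDR : D ≤ R := inf_le_right.trans le_sup_left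
  have hMR : M ≤ R := le_sup_right
  have hER : E ≤ R := hEB.trans le_sup_left
  -- `D` is normalised by `B` and by `M`
  have hDn : ∀ g ∈ R, ∀ d ∈ D, g * d * g⁻¹ ∈ D := by
    intro g hg d hd
    obtain ⟨b, hb, m, hm, rfl⟩ := mem_sup_of_conj (fun b hb m hm => hM1 b (hBP hb) m hm) hg
    have h1 : m * d * m⁻¹ ∈ D := by
      refine mem_inf.2 ⟨mul_mem (mul_mem hm hd.1) (inv_mem hm), ?_⟩
      have h2 : m * d * m⁻¹ = (m * d * m⁻¹ * d⁻¹) * d := by group
      rw [h2]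
      exact mul_mem (hM2 m hm d hd.1) hd.2
    have h2 : b * m * d * (b * m)⁻¹ = b * (m * d * m⁻¹) * b⁻¹ := by group
    rw [h2]
    exact mem_inf.2 ⟨hM1 b (hBP hb) _ h1.1, mul_mem (mul_mem hb h1.2) (inv_mem hb)⟩
  have hDN : (D.subgroupOf R).Normal := by
    refine ⟨fun d hd g => ?_⟩
    rw [mem_subgroupOf] at hd ⊢
    exact hDn g g.2 d hd
  let π := QuotientGroup.mk' (D.subgroupOf R)
  have hπ : ∀ x : R, π x = 1 ↔ (x : G) ∈ D := fun x => by
    rw [QuotientGroup.mk'_apply, QuotientGroup.eq_one_iff, mem_subgroupOf]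
  let V := (M.subgroupOf R).map π
  let A := (E.subgroupOf R).map π
  -- the commutators of `E` and `M`
  have hfix : ∀ e ∈ E, e ≠ 1 → ∀ m ∈ M, e * m * e⁻¹ * m⁻¹ ∈ D → m ∈ D := by
    intro e he he1 m hm h
    by_contra hmD
    have hmB : m ∉ B := fun hb => hmD ⟨hm, hb⟩
    apply he1
    refine hreg m (hMP hm) hmB e he ?_
    have h1 : m⁻¹ * e * m = (m⁻¹ * (e * m * e⁻¹ * m⁻¹) * m⁻¹⁻¹) * e := by group
    rw [h1]
    exact mul_mem (hDn m⁻¹ (inv_mem (hMR hm)) _ h).2 (hEB he)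
  have hV : IsMulCommutative V := by
    refine ⟨⟨?_⟩⟩
    rintro ⟨_, x, hx, rfl⟩ ⟨_, y, hy, rfl⟩
    rw [SetLike.mem_coe, mem_subgroupOf] at hx hy
    apply Subtype.ext
    change π x * π y = π y * π x
    rw [← map_mul, ← map_mul, ← mul_inv_eq_one, ← map_inv, ← map_mul, hπ]
    have h1 : ((x * y * (y * x)⁻¹ : R) : G) = x * y * (x : G)⁻¹ * (y : G)⁻¹ := by
      simp [mul_assoc]
    rw [h1]
    exact mem_inf.2 ⟨mul_mem (mul_mem (mul_mem hx hy) (inv_mem hx)) (inv_mem hy), hM2 _ hx _ hy⟩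
  have hVne : V ≠ ⊥ := by
    intro h
    apply hMB
    intro m hm
    have h1 : π ⟨m, hMR hm⟩ ∈ V := ⟨⟨m, hMR hm⟩, by rw [SetLike.mem_coe, mem_subgroupOf]; exact hm, rfl⟩
    rw [h, mem_bot, hπ] at h1
    exact h1.2
  have hAV : A ≤ normalizer (V : Set (R ⧸ D.subgroupOf R)) := by
    rintro _ ⟨e, he, rfl⟩
    rw [SetLike.mem_coe, mem_subgroupOf] at he
    apply mem_normalizer_fintype
    rintro _ ⟨m, hm, rfl⟩
    rw [SetLike.mem_coe, mem_subgroupOf] at hm
    refine ⟨e * m * e⁻¹, ?_, by rw [map_mul, map_mul, map_inv]⟩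
    rw [SetLike.mem_coe, mem_subgroupOf]
    exact hM1 _ (hBP (hEB he)) _ hm
  have hfpf : ∀ a ∈ A, a ≠ 1 → V ⊓ centralizer {a} = ⊥ := by
    rintro _ ⟨e, he, rfl⟩ he1
    rw [SetLike.mem_coe, mem_subgroupOf] at he
    rw [eq_bot_iff]
    rintro _ ⟨⟨m, hm, rfl⟩, hc⟩
    rw [SetLike.mem_coe, mem_subgroupOf] at hm
    have h1 : π e * π m = π m * π e := (mem_centralizer_singleton_iff.1 hc).symm
    rw [mem_bot, hπ]
    refine hfix e he ?_ m hm ?_
    · intro h
      apply he1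
      rw [hπ, h]
      exact one_mem _
    · have h2 : π (e * m * e⁻¹ * m⁻¹) = 1 := by
        rw [map_mul, map_mul, map_mul, map_inv, map_inv, h1]
        group
      rw [hπ] at h2
      exact h2
  have hAc : IsMulCommutative A := by
    refine ⟨⟨?_⟩⟩
    rintro ⟨_, x, hx, rfl⟩ ⟨_, y, hy, rfl⟩
    rw [SetLike.mem_coe, mem_subgroupOf] at hx hy
    apply Subtype.ext
    change π x * π y = π y * π x
    rw [← map_mul, ← map_mul]
    congr 1
    exact Subtype.ext (hE _ hx _ hy)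
  have hcyc : IsCyclic A := Cfsg.Agent.S0041.result A V hVne hAV hfpf (Or.inl hAc)
  -- `E ≃ A`
  let f : E →* A := ((π.comp (inclusion hER)).codRestrict A fun e =>
    ⟨inclusion hER e, by rw [SetLike.mem_coe, mem_subgroupOf]; exact e.2, rfl⟩)
  have hf : Function.Injective f := by
    rw [injective_iff_map_eq_one]
    intro e he
    have h1 : π (inclusion hER e) = 1 := congrArg Subtype.val he
    rw [hπ] at h1
    by_contra hne
    -- `e ∈ M ⊓ B`
    obtain ⟨m, hm, hmB⟩ := SetLike.not_le_iff_exists.1 hMB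
    apply hmB
    have h2 := hfix e e.2 (fun h => hne (Subtype.ext h)) m hm ?_
    · exact h2.2
    · have h3 : (e : G) * m * (e : G)⁻¹ * m⁻¹ = (e : G) * (m * (e : G)⁻¹ * m⁻¹) := by group
      rw [h3]
      exact mul_mem h1 (hDn m (hMR hm) _ (inv_mem h1))
  exact isCyclic_of_injective f hf

end Cfsg.Agent.H938
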