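import Cfsg.Agent.H938.Bad
import Cfsg.Agent.ChevalleyStructure.Elts
import Cfsg.Agent.ChevalleyStructure.FieldIso
import Cfsg.Agent.ClassicalGeometry.PSL2Solvable
import Cfsg.Agent.S1075
import Cfsg.Agent.S1069
import Cfsg.Agent.S1059

/-!
# `G₂(3)` contains `²G₂(3)`
-/

set_option autoImplicit false
set_option linter.unusedSectionVars false

namespace Cfsg.Agent.H938

open Cfsg Cfsg.Lie Cfsg.Agent.ChevalleyStructure.Elts Cfsg.Agent.ChevalleyStructure

theorem genSubgroup_le {D : ChevalleyDatum} (hD : InList D) {F : Type*} [Field F] (S : Set (List (ℕ × F))) :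
    D.genSubgroup F S ≤ D.group F := by
  unfold ChevalleyDatum.genSubgroup
  rw [Subgroup.closure_le]
  rintro g ⟨w, -, hg⟩
  have h1 : g = wordG hD w := Units.ext (by rw [hg, coe_wordG])
  rw [h1]
  unfold wordG
  apply Subgroup.list_prod_mem
  intro x hx
  rw [List.mem_map] at hx
  obtain ⟨p, -, rfl⟩ := hx
  exact xG_mem_group hD _ _

theorem bad_of_G2_three {F : Type*} [Field F] [Fintype F] (hF : Fintype.card F = 3)
    (hS : IsSimpleGroup ↥(chevG2.group F)) : Bad ↥(chevG2.group F) := by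
  have hZ : Fintype.card (ZMod 3) = 3 := ZMod.card 3
  have : Fact (Nat.Prime 3) := ⟨Nat.prime_three⟩
  let φ : ZMod 3 ≃+* F := FiniteField.ringEquivOfCardEq (hZ.trans hF.symm)
  have hle : twistedG2 (ZMod 3) (3 ^ 0) ≤ chevG2.group (ZMod 3) := genSubgroup_le (by simp [InList]) _
  have i1 : Fintype (GaloisField 2 3) := Fintype.ofFinite _
  have hfact : Fact (Nat.Prime 2) := ⟨Nat.prime_two⟩
  have h8 : Fintype.card (GaloisField 2 3) = 8 := by
    rw [Fintype.card_eq_nat_card]
    exact GaloisField.card 2 3 (by norm_num)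
  obtain ⟨hc, ⟨e⟩⟩ := Cfsg.Agent.S1075.result h8
  have h1 := Cfsg.Agent.S1069.result (K := ZMod 3) (m := 0) (by rw [hZ]; norm_num)
  have h2 := Cfsg.Agent.S1059.result (F := ZMod 3) hZ
  refine Bad.of_equiv (FieldIso.groupEquiv chevG2 φ) (bad_of_hom (Subgroup.inclusion hle)
    (Subgroup.inclusion_injective hle) ?_ (L := commutator ↥(twistedG2 (ZMod 3) 1)) ?_ ?_)
  · intro h
    have h3 : Nat.card ↥(twistedG2 (ZMod 3) (3 ^ 0)) = Nat.card ↥(chevG2.group (ZMod 3)) := by
      rw [Nat.card_congr (MonoidHom.ofInjective (Subgroup.inclusion_injective hle)).toEquiv, h]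
      exact Subgroup.card_top
    rw [h1, h2] at h3
    norm_num at h3
  · intro hs
    refine ClassicalGeometry.PSL2Solvable.not_isSolvable_psl (GaloisField 2 3) (by rw [h8]; norm_num) ?_
    exact Group.isSolvable_of_surjective (f := e.toMonoidHom) e.surjective
  · intro h
    rw [h, Subgroup.card_top] at hc
    have h3 : Nat.card ↥(twistedG2 (ZMod 3) 1) = Nat.card ↥(twistedG2 (ZMod 3) (3 ^ 0)) := rfl
    rw [h3, h1] at hc
    norm_num at hc

end Cfsg.Agent.H938
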