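import Cfsg.Agent.H938.Bad
import Cfsg.Agent.S0204
import Cfsg.Agent.S0810
import Cfsg.Agent.TwoFusion.QuatCoverSL
import Cfsg.Agent.OddHalf.LongSL.All

/-!
# Long `SL₂(q)`, `q > 3` odd, in a simple group: `Bad`
-/

set_option autoImplicit false
set_option linter.unusedSectionVars false

namespace Cfsg.Agent.H938

open Cfsg Subgroup

variable {G : Type*} [Group G] [Finite G] [IsSimpleGroup G]

/-- An insoluble subgroup with a unique involution `j`, centralised by `j`. -/
theorem bad_of_unique_inv {J : Subgroup G} (hJ : ¬ Group.IsSolvable J) {j : G} (hj : orderOf j = 2) (hjJ : j ∈ J)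
    (hJj : J ≤ centralizer ({j} : Set G)) (hu : ∀ x ∈ J, orderOf x = 2 → x = j) : Bad G := by
  by_contra hb
  have hj1 : j ≠ 1 := by
    rintro rfl
    rw [orderOf_one] at hj
    omega
  have htop : centralizer ({j} : Set G) ≠ ⊤ := by
    intro h
    have h1 : j ∈ center G := by
      rw [mem_center_iff]
      intro g
      have h2 : g ∈ centralizer ({j} : Set G) := by rw [h]; exact mem_top g
      exact mem_centralizer_singleton_iff.1 h2
    rcases (inferInstance : (center G).Normal).eq_bot_or_eq_top with h2 | h2
    · rw [h2, mem_bot] at h1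
      exact hj1 h1
    · apply hJ
      refine Group.isSolvable_of_comm fun a b => Subtype.ext ?_
      have h3 : (b : G) ∈ center G := by rw [h2]; exact mem_top _
      exact (mem_center_iff.1 h3 a)
  have hC : J = centralizer ({j} : Set G) := by
    by_contra hne
    exact hb ⟨J, _, lt_of_le_of_ne hJj hne, htop, hJ⟩
  have hf2 : Fact (Nat.Prime 2) := ⟨Nat.prime_two⟩
  -- a Sylow 2-subgroup containing `j`
  have hz : IsPGroup 2 (zpowers j) := by
    refine IsPGroup.of_card (n := 1) ?_
    rw [Nat.card_zpowers, hj, pow_one]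
  obtain ⟨S, hS⟩ := hz.exists_le_sylow
  have hjS : j ∈ (S : Subgroup G) := hS (mem_zpowers j)
  -- an involution in the centre of `S`
  have hSn : Nontrivial (S : Subgroup G) := ⟨⟨⟨j, hjS⟩, 1, fun h => hj1 (congrArg Subtype.val h)⟩⟩
  have hZ : Nontrivial (center (S : Subgroup G)) := S.isPGroup'.center_nontrivial
  obtain ⟨z, hz2⟩ : ∃ z : center (S : Subgroup G), orderOf z = 2 := by
    have h1 : IsPGroup 2 (center (S : Subgroup G)) := S.isPGroup'.to_subgroup _
    have h2 : 2 ∣ Nat.card (center (S : Subgroup G)) := by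
      obtain ⟨n, hn⟩ := h1.exists_card_eq
      rw [hn]
      refine dvd_pow_self 2 ?_
      rintro rfl
      have h3 := Finite.one_lt_card_iff_nontrivial.2 hZ
      rw [hn] at h3
      simp at h3
    exact exists_prime_orderOf_dvd_card' 2 h2
  have hzj : ((z : (S : Subgroup G)) : G) = j := by
    apply hu
    · rw [hC, mem_centralizer_singleton_iff]
      have h1 := mem_center_iff.1 z.2 ⟨j, hjS⟩
      exact (congrArg Subtype.val h1).symm
    · refine Eq.trans ?_ hz2
      rw [← orderOf_injective (center (S : Subgroup G)).subtype (Subgroup.subtype_injective _) z,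
        ← orderOf_injective (S : Subgroup G).subtype (Subgroup.subtype_injective _)]
      rfl
  have hSJ : (S : Subgroup G) ≤ J := by
    intro s hs
    rw [hC, mem_centralizer_singleton_iff]
    have h1 := mem_center_iff.1 z.2 ⟨s, hs⟩
    have h2 := congrArg Subtype.val h1
    rw [← hzj]
    exact h2
  -- a Klein four-group
  have hcyc : ¬ IsCyclic G := by
    intro hc
    apply hJ
    refine Group.isSolvable_of_comm fun a b => Subtype.ext ?_
    exact hc.isMulCommutative.is_comm.comm _ _
  obtain ⟨E, hE⟩ := Cfsg.Agent.S0204.result hcyc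
  have hE2 : IsPGroup 2 E := by
    refine IsPGroup.of_card (n := 2) ?_
    rw [hE.card_four]; norm_num
  obtain ⟨T, hT⟩ := hE2.exists_le_sylow
  obtain ⟨g, hg⟩ := MulAction.exists_smul_eq G T S
  have huE : ∀ x ∈ E, x ≠ 1 → g * x * g⁻¹ = j := by
    intro x hx hx1
    have h1 : g * x * g⁻¹ ∈ (S : Subgroup G) := by
      rw [← hg]
      exact ⟨x, hT hx, rfl⟩
    apply hu _ (hSJ h1)
    have h0 : orderOf (g * x * g⁻¹) = orderOf x := by
      rw [← MulAut.conj_apply, MulEquiv.orderOf_eq]
    rw [h0]
    have h2 : orderOf (⟨x, hx⟩ : E) = 2 := by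
      refine orderOf_eq_prime ?_ fun h => hx1 (congrArg Subtype.val h)
      rw [pow_two]
      exact hE.mul_self _
    rw [← h2, ← orderOf_injective E.subtype (Subgroup.subtype_injective _)]
    rfl
  have h1 : Nat.card E ≤ 2 := by
    have h2 : ∀ x : E, x = 1 ∨ (x : G) = g⁻¹ * j * g := by
      intro x
      by_cases hx : x = 1
      · exact Or.inl hx
      · right
        rw [← huE x x.2 (fun h => hx (Subtype.ext h))]
        group
    classical
    have h3 : Nat.card E ≤ Nat.card Bool := by
      refine Nat.card_le_card_of_injective (fun x : E => decide (x = 1)) ?_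
      intro x y hxy
      simp only [decide_eq_decide] at hxy
      rcases h2 x with h | h
      · rw [h]; exact (hxy.1 h).symm
      · rcases h2 y with h' | h'
        · rw [h']; exact hxy.2 h'
        · exact Subtype.ext (h.trans h'.symm)
    exact h3.trans (by simp)
  rw [hE.card_four] at h1
  omega

/-- **A long `SL₂(q)` with `q > 3`.** -/
theorem bad_of_hasLong {q : ℕ} (hq : 3 < q) (h : OddHalf.LongSL.HasLong q G) : Bad G := by
  obtain ⟨j, J, hj, hjJ, hJj, -, F, _, _, hF, hodd, ⟨e⟩⟩ := h
  refine bad_of_unique_inv (J := J) ?_ hj hjJ hJj ?_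
  · intro hs
    have h1 : Group.IsSolvable (Matrix.SpecialLinearGroup (Fin 2) F) :=
      Group.isSolvable_of_surjective (f := e.toMonoidHom) e.surjective
    exact ClassicalGeometry.PSL2Solvable.not_isSolvable_psl F (by omega)
      (Group.isSolvable_of_surjective (f := QuotientGroup.mk' (center (Matrix.SpecialLinearGroup (Fin 2) F)))
        (QuotientGroup.mk'_surjective _))
  · have key : ∀ x (hx : x ∈ J), orderOf x = 2 → e ⟨x, hx⟩ = -1 := by
      intro x hx hx2
      apply TwoFusion.QuatCoverSL.eq_neg_one_of_orderOf_two (by rw [hF]; exact hodd)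
      refine Eq.trans ?_ hx2
      rw [MulEquiv.orderOf_eq, ← orderOf_injective J.subtype (Subgroup.subtype_injective _)]
      rfl
    intro x hx hx2
    have h1 := (key x hx hx2).trans (key j hjJ hj).symm
    exact congrArg Subtype.val (e.injective h1)

end Cfsg.Agent.H938
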