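import Cfsg.Agent.H938.Bad
import Cfsg.Agent.S0810

/-!
# `PSL₂(q)`: chains of insoluble subgroups, and the list
-/

set_option autoImplicit false
set_option linter.unusedSectionVars false

namespace Cfsg.Agent.H938

open Cfsg Subgroup Cfsg.Agent.ClassicalGeometry.PSL2Basic Cfsg.Agent.ClassicalGeometry.PSL2Solvable

/-- `PSL₂(F)` -/
abbrev PL (F : Type*) [Field F] := Matrix.ProjectiveSpecialLinearGroup (Fin 2) F

section

variable {F : Type*} [Field F] [Fintype F] {K : Type*} [Field K] [Fintype K]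

theorem pslMap_range_ne_top (f : K →+* F) {m : ℕ} (hm : 2 ≤ m)
    (hK : Fintype.card K ^ m = Fintype.card F) (h4 : 4 ≤ Fintype.card K) :
    (pslMap (n := Fin 2) f).range ≠ ⊤ := by
  have hinj := pslMap_injective (n := Fin 2) f
  intro ht
  have h1 : Nat.card (Matrix.ProjectiveSpecialLinearGroup (Fin 2) K) =
      Nat.card (Matrix.ProjectiveSpecialLinearGroup (Fin 2) F) := by
    rw [Nat.card_congr (MonoidHom.ofInjective hinj).toEquiv, ht]
    exact Subgroup.card_top
  have h2 := S0810.le_card_psl F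
  have h3 := S0810.card_psl_le K
  rw [← h1] at h2
  have h5 : Fintype.card K ^ 2 ≤ Fintype.card F := by
    rw [← hK]
    exact Nat.pow_le_pow_right (by omega) hm
  have h6 : Fintype.card K * Fintype.card K ≤ Fintype.card F := by
    rw [← pow_two]; exact h5
  have h7 : Fintype.card K * 4 ≤ Fintype.card F :=
    le_trans (Nat.mul_le_mul_left _ h4) h6
  have h8 : Fintype.card K ^ 2 - 1 ≤ Fintype.card F ^ 2 - 1 :=
    Nat.sub_le_sub_right (Nat.pow_le_pow_left (by omega) 2) 1
  have h9 : Fintype.card K * 4 * (Fintype.card K ^ 2 - 1) ≤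
      Fintype.card F * (Fintype.card F ^ 2 - 1) := Nat.mul_le_mul h7 h8
  have h10 : 0 < Fintype.card K * (Fintype.card K ^ 2 - 1) := by
    apply Nat.mul_pos (by omega)
    have : 4 ^ 2 ≤ Fintype.card K ^ 2 := Nat.pow_le_pow_left h4 2
    omega
  nlinarith

theorem not_isSolvable_range (f : K →+* F) (h4 : 4 ≤ Fintype.card K) :
    ¬ Group.IsSolvable (pslMap (n := Fin 2) f).range := by
  intro hsol
  exact not_isSolvable_psl K h4 (Group.isSolvable_of_isSolvable_injective
    (f := (MonoidHom.ofInjective (pslMap_injective (n := Fin 2) f)).toMonoidHom)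
    (MonoidHom.ofInjective (pslMap_injective (n := Fin 2) f)).injective)

/-- An insoluble proper subgroup of a subfield subgroup. -/
theorem bad_of_subfield {m : ℕ} (hm : 2 ≤ m) (hK : Fintype.card K ^ m = Fintype.card F) (h4 : 4 ≤ Fintype.card K)
    {L : Subgroup (PL K)} (hL : ¬ Group.IsSolvable L) (hLt : L ≠ ⊤) : Bad (PL F) := by
  obtain ⟨f⟩ := exists_ringHom_of_card_pow hK
  exact bad_of_hom (pslMap (n := Fin 2) f) (pslMap_injective f) (pslMap_range_ne_top f hm hK h4) hL hLt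

theorem bad_of_chain {E : Type*} [Field E] [Fintype E] {m k : ℕ} (hm : 2 ≤ m) (hk : 2 ≤ k)
    (hK : Fintype.card K ^ m = Fintype.card F) (hE : Fintype.card E ^ k = Fintype.card K) (h4 : 4 ≤ Fintype.card E) :
    Bad (PL F) := by
  obtain ⟨f⟩ := exists_ringHom_of_card_pow hE
  refine bad_of_subfield hm hK (h4.trans ?_) (not_isSolvable_range f h4) (pslMap_range_ne_top f hk hE h4)
  rw [← hE]
  exact Nat.le_self_pow (by omega) _

/-- `A₅ < PSL₂(K) < PSL₂(F)`. -/
theorem bad_of_five {m : ℕ} (hm : 2 ≤ m) (hK : Fintype.card K ^ m = Fintype.card F) (h6 : 6 ≤ Fintype.card K)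
    (h5 : 5 ∣ Fintype.card K * (Fintype.card K ^ 2 - 1)) : Bad (PL F) := by
  obtain ⟨H, ⟨e⟩⟩ := (Cfsg.Agent.S0804.result (F := K) rfl).mpr h5
  refine bad_of_subfield hm hK (by omega) (L := H) ?_ ?_
  · intro hs
    exact not_isSolvable_alternating_five
      (Group.isSolvable_of_surjective (f := e.toMonoidHom) e.surjective)
  · rintro rfl
    have h60 : Nat.card (alternatingGroup (Fin 5)) = 60 := by
      rw [Nat.card_eq_fintype_card]
      decide +kernel
    have h1 : Nat.card (PL K) = 60 := by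
      rw [← h60, ← Nat.card_congr e.toEquiv]
      exact Subgroup.card_top.symm
    rcases (S0810.card_eq_sixty_iff K).1 h1 with h | h <;> omega

/-- `diag (b, b⁻¹)` -/
def dg (b : F) (hb : b ≠ 0) : Matrix.SpecialLinearGroup (Fin 2) F :=
  ⟨!![b, 0; 0, b⁻¹], by rw [Matrix.det_fin_two_of, mul_inv_cancel₀ hb, mul_zero, sub_zero]⟩

theorem dg_coe (b : F) (hb : b ≠ 0) : (dg b hb).1 = !![b, 0; 0, b⁻¹] := rfl

/-- conjugation by `diag (c, 1)` -/
def tw (c : K) (hc : c ≠ 0) (A : Matrix.SpecialLinearGroup (Fin 2) K) : Matrix.SpecialLinearGroup (Fin 2) K :=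
  ⟨!![A.1 0 0, c * A.1 0 1; c⁻¹ * A.1 1 0, A.1 1 1], by
    have hdet := A.2
    rw [Matrix.det_fin_two] at hdet
    rw [Matrix.det_fin_two_of]
    refine Eq.trans ?_ hdet
    field_simp⟩

theorem tw_coe (c : K) (hc : c ≠ 0) (A : Matrix.SpecialLinearGroup (Fin 2) K) :
    (tw c hc A).1 = !![A.1 0 0, c * A.1 0 1; c⁻¹ * A.1 1 0, A.1 1 1] := rfl

theorem map_tw (f : K →+* F) {b : F} {c : K} {hc : c ≠ 0} (hb0 : b ≠ 0) (hb : b * b = f c)
    (A : Matrix.SpecialLinearGroup (Fin 2) K) : Matrix.SpecialLinearGroup.map f (tw c hc A) =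
      dg b hb0 * Matrix.SpecialLinearGroup.map f A * (dg b hb0)⁻¹ := by
  rw [eq_mul_inv_iff_mul_eq]
  apply Subtype.ext
  rw [Matrix.SpecialLinearGroup.coe_mul, Matrix.SpecialLinearGroup.coe_mul,
    Matrix.SpecialLinearGroup.map_apply_coe, Matrix.SpecialLinearGroup.map_apply_coe, tw_coe, dg_coe]
  ext i j
  fin_cases i <;> fin_cases j <;>
    simp [Matrix.mul_apply, Fin.sum_univ_two, ← hb] <;> field_simp

/-- `PGL₂(K)` in `PSL₂(F)` for `|F| = |K|²`, odd order. -/
theorem bad_of_square (hK : Fintype.card K ^ 2 = Fintype.card F) (hodd : Odd (Fintype.card K))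
    (h4 : 4 ≤ Fintype.card K) : Bad (PL F) := by
  obtain ⟨f⟩ := exists_ringHom_of_card_pow hK
  have h4F : 4 ≤ Fintype.card F := by
    rw [← hK]; exact h4.trans (Nat.le_self_pow (by norm_num) _)
  have : IsSimpleGroup (PL F) :=
    Matrix.ProjectiveSpecialLinearGroup.rank_two_simple (by rwa [Nat.card_eq_fintype_card])
  have h2K : ringChar K ≠ 2 := by
    intro h
    have h3 : CharP K 2 := h ▸ ringChar.charP K
    obtain ⟨k, -, hk⟩ := FiniteField.card K 2
    rw [hk] at hodd
    exact absurd hodd (by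
      rw [Nat.not_odd_iff_even]
      exact (even_two).pow_of_ne_zero k.ne_zero)
  obtain ⟨c, hc⟩ := FiniteField.exists_nonsquare h2K
  have hc0 : c ≠ 0 := by
    rintro rfl
    exact hc ⟨0, by simp⟩
  obtain ⟨b, hb⟩ : ∃ b : F, b * b = f c := by
    have h2F : ringChar F ≠ 2 := by
      intro h
      have h3 : CharP F 2 := h ▸ ringChar.charP F
      obtain ⟨k, -, hk⟩ := FiniteField.card F 2
      have h5 : Odd (Fintype.card F) := by rw [← hK]; exact hodd.pow
      rw [hk] at h5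
      exact absurd h5 (by
        rw [Nat.not_odd_iff_even]
        exact (even_two).pow_of_ne_zero k.ne_zero)
    have h6 : IsSquare (f c) := by
      rw [FiniteField.isSquare_iff h2F (by rw [map_ne_zero]; exact hc0)]
      obtain ⟨k, hk⟩ := hodd
      have h7 : Fintype.card F / 2 = (Fintype.card K - 1) * (k + 1) := by
        rw [← hK, hk]
        have : (2 * k + 1) ^ 2 = 2 * ((2 * k) * (k + 1)) + 1 := by ring
        rw [this, Nat.add_sub_cancel]
        omega
      rw [h7, pow_mul, ← map_pow, FiniteField.pow_card_sub_one_eq_one c hc0, map_one, one_pow]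
    obtain ⟨b, hb⟩ := h6
    exact ⟨b, hb.symm⟩
  have hb0 : b ≠ 0 := by
    rintro rfl
    rw [mul_zero, eq_comm, map_eq_zero] at hb
    exact hc0 hb
  have hbf : ∀ d : K, f d ≠ b := by
    rintro d rfl
    apply hc
    refine ⟨d, f.injective ?_⟩
    rw [map_mul, hb]
  refine bad_of_mem_normalizer (L := (pslMap (n := Fin 2) f).range) (not_isSolvable_range f h4)
    (pslMap_range_ne_top f (by norm_num) hK h4) (x := QuotientGroup.mk (dg b hb0)) ?_ ?_
  · apply mem_normalizer_fintype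
    rintro _ ⟨y, rfl⟩
    induction y using QuotientGroup.induction_on with
    | H A =>
      refine ⟨QuotientGroup.mk (tw c hc0 A), ?_⟩
      rw [pslMap_mk, pslMap_mk]
      change _ = (QuotientGroup.mk (dg b hb0 * Matrix.SpecialLinearGroup.map f A * (dg b hb0)⁻¹) : PL F)
      rw [map_tw f hb0 hb]
  · rintro ⟨y, hy⟩
    induction y using QuotientGroup.induction_on with
    | H A =>
      rw [pslMap_mk, QuotientGroup.eq, Matrix.SpecialLinearGroup.mem_center_iff] at hy
      obtain ⟨r, hr, hrs⟩ := hy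
      have h1 : (dg b hb0).1 = (Matrix.SpecialLinearGroup.map f A).1 * Matrix.scalar (Fin 2) r := by
        rw [hrs, ← Matrix.SpecialLinearGroup.coe_mul, mul_inv_cancel_left]
      have h2 := congrFun (congrFun h1 0) 0
      have h3 : r = 1 ∨ r = -1 := by
        rw [Fintype.card_fin] at hr
        exact mul_self_eq_one_iff.1 (by rw [← pow_two]; exact hr)
      rw [dg_coe] at h2
      simp [Matrix.mul_apply, Fin.sum_univ_two] at h2
      rcases h3 with rfl | rfl
      · exact hbf (A.1 0 0) (by rw [h2]; simp)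
      · exact hbf (-A.1 0 0) (by rw [h2]; simp)

end

/-! ### the list -/

section

variable {F : Type*} [Field F] [Fintype F]

theorem card_galois (p : ℕ) [Fact p.Prime] {a : ℕ} (ha : a ≠ 0) :
    @Fintype.card (GaloisField p a) (Fintype.ofFinite _) = p ^ a := by
  rw [Fintype.card_eq_nat_card]
  exact GaloisField.card p a ha

theorem bad_of_exp {p : ℕ} [Fact p.Prime] {a b c : ℕ} (hF : Fintype.card F = p ^ (a * b * c)) (hb : 2 ≤ b)
    (hc : 2 ≤ c) (ha : a ≠ 0) (h4 : 4 ≤ p ^ a) : Bad (PL F) := by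
  have i1 : Fintype (GaloisField p a) := Fintype.ofFinite _
  have i2 : Fintype (GaloisField p (a * b)) := Fintype.ofFinite _
  have e1 : Fintype.card (GaloisField p a) = p ^ a := by
    rw [Fintype.card_eq_nat_card]; exact GaloisField.card p a ha
  have e2 : Fintype.card (GaloisField p (a * b)) = p ^ (a * b) := by
    rw [Fintype.card_eq_nat_card]; exact GaloisField.card p (a * b) (by positivity)
  refine bad_of_chain (K := GaloisField p (a * b)) (E := GaloisField p a) hc hb ?_ ?_ ?_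
  · rw [e2, hF, ← pow_mul]
  · rw [e1, e2, ← pow_mul]
  · rw [e1]; exact h4

theorem bad_of_exp_two {p : ℕ} [Fact p.Prime] {a : ℕ} (hF : Fintype.card F = p ^ (a * 2)) (hp : p ≠ 2)
    (ha : a ≠ 0) (h4 : 4 ≤ p ^ a) : Bad (PL F) := by
  have i1 : Fintype (GaloisField p a) := Fintype.ofFinite _
  have e1 : Fintype.card (GaloisField p a) = p ^ a := by
    rw [Fintype.card_eq_nat_card]; exact GaloisField.card p a ha
  refine bad_of_square (K := GaloisField p a) ?_ ?_ ?_
  · rw [e1, hF, ← pow_mul]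
  · rw [e1]
    exact ((Fact.out : p.Prime).odd_of_ne_two hp).pow
  · rw [e1]; exact h4

theorem bad_of_exp_five {p : ℕ} [Fact p.Prime] {a b : ℕ} (hF : Fintype.card F = p ^ (a * b)) (hb : 2 ≤ b)
    (ha : a ≠ 0) (h6 : 6 ≤ p ^ a) (h5 : 5 ∣ p ^ a * ((p ^ a) ^ 2 - 1)) : Bad (PL F) := by
  have i1 : Fintype (GaloisField p a) := Fintype.ofFinite _
  have e1 : Fintype.card (GaloisField p a) = p ^ a := by
    rw [Fintype.card_eq_nat_card]; exact GaloisField.card p a ha
  refine bad_of_five (K := GaloisField p a) hb ?_ ?_ ?_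
  · rw [e1, hF, ← pow_mul]
  · rw [e1]; exact h6
  · rw [e1]; exact h5

/-- a composite exponent -/
theorem exists_fac {n : ℕ} (hn : 2 ≤ n) (hp : ¬ n.Prime) : ∃ r m : ℕ, r.Prime ∧ 2 ≤ m ∧ n = r * m ∧ (Even n → r = 2) := by
  obtain ⟨m, hm⟩ := Nat.minFac_dvd n
  have hr := Nat.minFac_prime (show n ≠ 1 by omega)
  refine ⟨n.minFac, m, hr, ?_, hm, ?_⟩
  · by_contra hcon
    have : m = 0 ∨ m = 1 := by omega
    rcases this with rfl | rfl
    · omega
    · rw [mul_one] at hm
      exact hp (hm ▸ hr)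
  · intro he
    exact (Nat.minFac_eq_two_iff n).2 he.two_dvd

/-- **The list for `PSL₂(q)`**: `Bad`, minimal simple, or on the list. -/
theorem psl_two_list (h4 : 4 ≤ Fintype.card F) : Bad (PL F) ∨ Cfsg.IsMinimalSimple (PL F) ∨
    (∃ r s : ℕ, r.Prime ∧ s.Prime ∧ Fintype.card F = 2 ^ (r * s)) ∨
    (∃ r s : ℕ, r.Prime ∧ s.Prime ∧ Odd r ∧ Odd s ∧ Fintype.card F = 3 ^ (r * s)) ∨
    (∃ p : ℕ, p.Prime ∧ (p % 5 = 1 ∨ p % 5 = 4) ∧ Fintype.card F = p) ∨
    (∃ p r : ℕ, p.Prime ∧ r.Prime ∧ Odd r ∧ (p = 5 ∨ p % 5 = 2 ∨ p % 5 = 3) ∧ Fintype.card F = p ^ r) ∨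
    Fintype.card F = 9 := by
  obtain ⟨p, hchar⟩ := CharP.exists F
  obtain ⟨n, hp, hn⟩ := FiniteField.card F p
  have hpf : Fact p.Prime := ⟨hp⟩
  have hn0 : 0 < (n : ℕ) := n.pos
  generalize (n : ℕ) = n at hn hn0
  have hmin := (Cfsg.Agent.S0810.result (F := F) (q := Fintype.card F) rfl).2
  have hp2' := hp.two_le
  by_cases hp2 : p = 2
  · subst hp2
    have hn2 : 2 ≤ n := by
      by_contra hcon
      have : n = 1 := by omega
      rw [hn, this] at h4
      omega
    by_cases hnp : n.Prime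
    · exact Or.inr (Or.inl (hmin (Or.inl ⟨n, hnp, hn⟩)))
    obtain ⟨r, m, hr, hm, hnr, -⟩ := exists_fac hn2 hnp
    by_cases hmp : m.Prime
    · exact Or.inr (Or.inr (Or.inl ⟨r, m, hr, hmp, hnr ▸ hn⟩))
    obtain ⟨s, t, hs, ht, hmt, -⟩ := exists_fac hm hmp
    refine Or.inl (bad_of_exp (p := 2) (a := r) (b := s) (c := t) ?_ hs.two_le ht hr.ne_zero ?_)
    · rw [hn, hnr, hmt, mul_assoc]
    · calc 4 = 2 ^ 2 := by norm_num
        _ ≤ 2 ^ r := Nat.pow_le_pow_right (by norm_num) hr.two_le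
  by_cases hp3 : p = 3
  · subst hp3
    have hn2 : 2 ≤ n := by
      by_contra hcon
      have : n = 1 := by omega
      rw [hn, this] at h4
      omega
    by_cases hnp : n.Prime
    · by_cases h2 : n = 2
      · right; right; right; right; right; right
        rw [hn, h2]; norm_num
      · exact Or.inr (Or.inl (hmin (Or.inr (Or.inl ⟨n, hnp, h2, hn⟩))))
    obtain ⟨r, m, hr, hm, hnr, hev⟩ := exists_fac hn2 hnp
    have h9 : ∀ k, 2 ≤ k → 4 ≤ 3 ^ k := by
      intro k hk
      calc 4 ≤ 3 ^ 2 := by norm_num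
        _ ≤ 3 ^ k := Nat.pow_le_pow_right (by norm_num) hk
    by_cases he : Even n
    · have h2 := hev he
      subst h2
      refine Or.inl (bad_of_exp_two (p := 3) (a := m) ?_ (by norm_num) (by omega) (h9 m hm))
      rw [hn, hnr, mul_comm]
    have hor : Odd r := by
      rw [Nat.not_even_iff_odd, hnr, Nat.odd_mul] at he
      exact he.1
    have hom : Odd m := by
      rw [Nat.not_even_iff_odd, hnr, Nat.odd_mul] at he
      exact he.2
    by_cases hmp : m.Prime
    · exact Or.inr (Or.inr (Or.inr (Or.inl ⟨r, m, hr, hmp, hor, hom, hnr ▸ hn⟩)))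
    obtain ⟨s, t, hs, ht, hmt, -⟩ := exists_fac hm hmp
    refine Or.inl (bad_of_exp (p := 3) (a := r) (b := s) (c := t) ?_ hs.two_le ht hr.ne_zero (h9 r hr.two_le))
    rw [hn, hnr, hmt, mul_assoc]
  -- `p ≥ 5`
  have hp4 : p ≠ 4 := by
    rintro rfl
    exact absurd hp (by norm_num)
  have hp5 : 5 ≤ p := by omega
  have hmod : p = 5 ∨ p % 5 = 1 ∨ p % 5 = 4 ∨ p % 5 = 2 ∨ p % 5 = 3 := by
    by_cases h0 : p % 5 = 0
    · exact Or.inl ((Nat.prime_dvd_prime_iff_eq Nat.prime_five hp).mp (Nat.dvd_of_mod_eq_zero h0)).symm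
    · omega
  rcases Nat.lt_or_ge n 2 with hn1 | hn2
  · have hn1 : n = 1 := by omega
    rw [hn1, pow_one] at hn
    rcases hmod with h | h | h | h
    · exact Or.inr (Or.inl (hmin (Or.inr (Or.inr (Or.inr (hn.trans h))))))
    · exact Or.inr (Or.inr (Or.inr (Or.inr (Or.inl ⟨p, hp, Or.inl h, hn⟩))))
    · exact Or.inr (Or.inr (Or.inr (Or.inr (Or.inl ⟨p, hp, Or.inr h, hn⟩))))
    · refine Or.inr (Or.inl (hmin (Or.inr (Or.inr (Or.inl ⟨?_, ?_, ?_⟩)))))
      · rw [hn]; exact hp
      · rw [hn]; omega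
      · rw [hn]; exact h
  by_cases hnp : n.Prime
  · rcases Nat.eq_or_lt_of_le hn2 with h2 | h2
    · refine Or.inl (bad_of_exp_two (p := p) (a := 1) ?_ hp2 one_ne_zero (by rw [pow_one]; omega))
      rw [hn, ← h2]
    have hodd : Odd n := hnp.odd_of_ne_two (by omega)
    by_cases h14 : p % 5 = 1 ∨ p % 5 = 4
    · refine Or.inl (bad_of_exp_five (p := p) (a := 1) (b := n) ?_ hn2 one_ne_zero (by rw [pow_one]; omega) ?_)
      · rw [hn, one_mul]
      · rw [pow_one]
        apply Dvd.dvd.mul_left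
        have h2 : p ^ 2 ≡ 1 [MOD 5] := by
          rcases h14 with h1 | h1
          · have : p ≡ 1 [MOD 5] := h1
            exact this.pow 2
          · have : p ≡ 4 [MOD 5] := h1
            exact (this.pow 2).trans (by decide)
        exact (Nat.modEq_iff_dvd' (Nat.one_le_pow _ _ (by omega))).mp h2.symm
    · refine Or.inr (Or.inr (Or.inr (Or.inr (Or.inr (Or.inl ⟨p, n, hp, hnp, hodd, ?_, hn⟩)))))
      omega
  · obtain ⟨r, m, hr, hm, hnr, -⟩ := exists_fac hn2 hnp
    refine Or.inl (bad_of_exp (p := p) (a := 1) (b := r) (c := m) ?_ hr.two_le hm one_ne_zero (by rw [pow_one]; omega))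
    rw [hn, hnr, one_mul]

end

end Cfsg.Agent.H938
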