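import Cfsg.Agent.H938.Rgd
import Cfsg.Agent.H938.Frob

/-!
# Groups with a root group datum of rank at least two and a non-cyclic abelian subgroup in a root group

* `not_isSolvable_LJ_one` : the Levi subgroup of rank one is insoluble if `X (α_i)` has a non-cyclic abelian subgroup;
* `bad_of_rank_two`.
-/

set_option autoImplicit false
set_option linter.unusedSectionVars false

namespace Cfsg.Agent.H938

open CoxeterSystem Cfsg.Agent.ChevalleyStructure.CoxeterGeom Cfsg.Agent.Tits.Roots Cfsg.Agent.Tits.Core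
  Cfsg.Agent.Tits.Exchange Cfsg.Agent.Nodes.Reps Cfsg.Agent.Nodes.BNOf Cfsg.Agent.Nodes.StabComb
  Cfsg.Agent.Nodes.Bruhat Cfsg.Agent.Nodes.OppDec Cfsg.Agent.Nodes.LeviDec Cfsg.Agent.Omega.ML.Ex.Typ
  Cfsg.Agent.FixBN

section

variable {I W Y : Type*} [Fintype I] [DecidableEq I] [Group W] [Group Y] {M : CoxeterMatrix I}
  {cs : CoxeterSystem M W} {A : I → I → ℤ} {h : IsCartan M A} {p : ℕ} {T : Subgroup Y} {n : I → Y}
  {X : (I → ℤ) → Subgroup Y}

theorem mem_WJ_single {i : I} {w : W} (hw : w ∈ WJ cs {i}) : w = 1 ∨ w = cs.simple i := by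
  unfold WJ at hw
  rw [Set.image_singleton] at hw
  induction hw using Subgroup.closure_induction with
  | mem x hx => exact Or.inr hx
  | one => exact Or.inl rfl
  | mul x y _ _ hx hy =>
    rcases hx with rfl | rfl <;> rcases hy with rfl | rfl
    · exact Or.inl (mul_one _)
    · exact Or.inr (one_mul _)
    · exact Or.inr (mul_one _)
    · exact Or.inl (cs.simple_mul_simple_self i)
  | inv x _ hx =>
    rcases hx with rfl | rfl
    · exact Or.inl inv_one
    · exact Or.inr (cs.inv_simple i)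

/-- a root element of the panel `i` is not conjugated into `B` by elements outside `B` -/
theorem eq_one_of_conj_mem [Finite W] (R : RGD cs h p T n X) {i : I} {g x : Y} (hg : g ∈ PJ cs h T X {i})
    (hgB : g ∉ RGD.B cs h T X) (hx : x ∈ X (sr i)) (hc : g⁻¹ * x * g ∈ RGD.B cs h T X) : x = 1 := by
  obtain ⟨w, hw, b₁, hb₁, k, hk, b₂, hb₂, rfl⟩ := (mem_PJ_iff_cell R).1 hg
  rcases mem_WJ_single hw with rfl | rfl
  · exact absurd (mul_mem (mul_mem hb₁ (RGD.T_le_B hk.mem_of_one)) hb₂) hgB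
  have h1 : k⁻¹ * (b₁⁻¹ * x * b₁) * k ∈ RGD.B cs h T X := by
    have h2 := mul_mem (mul_mem hb₂ hc) (inv_mem hb₂)
    have h3 : b₂ * ((b₁ * k * b₂)⁻¹ * x * (b₁ * k * b₂)) * b₂⁻¹ = k⁻¹ * (b₁⁻¹ * x * b₁) * k := by group
    rwa [h3] at h2
  -- `b₁ = v u t`
  obtain ⟨v, hv, u, hu, t, ht, rfl⟩ := R.mem_B' i hb₁
  set V := RGD.Sup X (RGD.PosNe cs h i) with hV
  have hXN := R.X_le_normalizer_V i
  have hTN : T ≤ Subgroup.normalizer (V : Set Y) := R.T_le_normalizer fun _ hx => hx.1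
  have hkN : k ∈ Subgroup.normalizer (V : Set Y) := by
    have h2 := (rp_simple cs R.nsys i).unique hk
    have h3 : k = n i * ((n i)⁻¹ * k) := by group
    rw [h3]
    exact mul_mem (mem_normalizer_iff_cj.2 (R.cj_n_V i)) (hTN h2)
  have hconj : ∀ {g : Y}, g ∈ Subgroup.normalizer (V : Set Y) → ∀ {z : Y}, z ∈ V → g⁻¹ * z * g ∈ V := by
    intro g hg z hz
    have h2 := (Subgroup.mem_normalizer_iff.1 (inv_mem hg) z).1 hz
    rwa [inv_inv] at h2
  have hVU : V ≤ RGD.Sup X (RGD.Pos cs h) :=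
    RGD.Sup_mono (S := RGD.PosNe cs h i) (S' := RGD.Pos cs h) fun z hz => ⟨hz.1, hz.2.1⟩
  have hVB : V ≤ RGD.B cs h T X := hVU.trans RGD.U_le_B
  -- the parts
  have hv1 : x⁻¹ * v⁻¹ * x * v ∈ V := mul_mem (hconj (hXN hx) (inv_mem hv)) hv
  have e1 : v⁻¹ * x * v = x * (x⁻¹ * v⁻¹ * x * v) := by group
  set v1 := x⁻¹ * v⁻¹ * x * v with hv1d
  set x1 := u⁻¹ * x * u with hx1d
  have hx1 : x1 ∈ X (sr i) := mul_mem (mul_mem (inv_mem hu) hx) hu
  have hx2 : t⁻¹ * x1 * t ∈ X (sr i) := by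
    have h2 := R.tor (sr i) (isRoot_sr cs h i) t ht
    rw [← h2] at hx1
    exact mem_cj.1 hx1
  have hv2 : t⁻¹ * (u⁻¹ * v1 * u) * t ∈ V := hconj (hTN ht) (hconj (hXN hu) hv1)
  have e2 : (v * u * t)⁻¹ * x * (v * u * t) = (t⁻¹ * x1 * t) * (t⁻¹ * (u⁻¹ * v1 * u) * t) := by
    have h2 : (v * u * t)⁻¹ * x * (v * u * t) = t⁻¹ * (u⁻¹ * (v⁻¹ * x * v) * u) * t := by group
    rw [h2, e1, hx1d]
    group
  rw [e2] at h1
  have h2 : k⁻¹ * (t⁻¹ * x1 * t) * k ∈ RGD.B cs h T X := by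
    have h3 : k⁻¹ * (t⁻¹ * x1 * t) * k =
        (k⁻¹ * (t⁻¹ * x1 * t * (t⁻¹ * (u⁻¹ * v1 * u) * t)) * k) * (k⁻¹ * (t⁻¹ * (u⁻¹ * v1 * u) * t) * k)⁻¹ := by
      group
    rw [h3]
    exact mul_mem h1 (inv_mem (hVB (hconj hkN hv2)))
  have h3 : k⁻¹ * (t⁻¹ * x1 * t) * k ∈ X (-sr i) := by
    have h4 := R.conj_mem' hk (isRoot_sr cs h i) hx2
    rwa [cs.inv_simple, rep_simple_sr] at h4
  have h4 := eq_one_of_mem_UN_of_mem_B R (X_le_UN (isRoot_sr cs h i).neg (neg_nonpos.2 (sr_nonneg i)) h3) h2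
  have h5 : x = (u * t) * k * (k⁻¹ * (t⁻¹ * x1 * t) * k) * k⁻¹ * (u * t)⁻¹ := by
    rw [hx1d]; group
  rw [h5, h4]
  group

/-- **The rank one Levi subgroup is insoluble if the root group has a non-cyclic abelian subgroup.** -/
theorem not_isSolvable_LJ_one [Finite W] [Finite Y] (hp : p.Prime) (R : RGD cs h p T n X) {i : I} {E : Subgroup Y}
    (hE : E ≤ X (sr i)) (hEc : ∀ a ∈ E, ∀ b ∈ E, a * b = b * a) (hcyc : ¬ IsCyclic E) :
    ¬ Group.IsSolvable (LJ cs h T X {i}) := by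
  intro hs
  have : Fact p.Prime := ⟨hp⟩
  have hV : Group.IsSolvable (VJ cs h X {i}) := by
    have h1 : IsPGroup p (VJ cs h X {i}) := R.isPGroup_Upos.to_le (VJ_le_U _)
    have : Group.IsNilpotent (VJ cs h X {i}) := h1.isNilpotent
    infer_instance
  have hP := isSolvable_PJ R hV hs
  refine hcyc (isCyclic_of_solvable hP B_le_PJ ?_ (hE.trans (RGD.X_le_B (isRoot_sr cs h i) (sr_nonneg i))) hEc
    fun g hg hgB x hx hc => eq_one_of_conj_mem R hg hgB (hE hx) hc)
  intro hle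
  have h1 : n i ∈ RGD.B cs h T X := hle (LJ_le_PJ (n_mem_LJ R rfl))
  have h2 := R.eq_one_of_mem_B (rp_simple cs R.nsys i) h1
  have h6 := cs.length_simple i
  rw [h2, cs.length_one] at h6
  exact absurd h6 (by decide)

end

/-- `G` has a root group datum of type `M` and characteristic `p`, and a non-cyclic abelian subgroup in a simple
root group -/
def HasX (p : ℕ) {l : ℕ} (M : CoxeterMatrix (Fin l)) (G : Type*) [Group G] : Prop :=
  ∃ (A : Fin l → Fin l → ℤ) (h : IsCartan M A) (T : Subgroup G) (n : Fin l → G) (X : (Fin l → ℤ) → Subgroup G),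
    Finite M.Group ∧ RGD M.toCoxeterSystem h p T n X ∧ Nodes.RGDLib.G1 M.toCoxeterSystem h X = ⊤ ∧
      ∃ (i : Fin l) (E : Subgroup G), E ≤ X (sr i) ∧ (∀ a ∈ E, ∀ b ∈ E, a * b = b * a) ∧ ¬ IsCyclic E

/-- **Root group data of rank at least two, non-cyclic root groups.** -/
theorem bad_of_hasX {p l : ℕ} {M : CoxeterMatrix (Fin l)} {G : Type*} [Group G] [Finite G] [IsSimpleGroup G]
    (hp : p.Prime) (hl : 2 ≤ l) (hG : HasX p M G) : Bad G := by
  obtain ⟨A, h, T, n, X, hW, R, hX, i, E, hE, hEc, hcyc⟩ := hG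
  have : Fact p.Prime := ⟨hp⟩
  have hV : Group.IsSolvable (VJ M.toCoxeterSystem h X {i}) := by
    have h1 : IsPGroup p (VJ M.toCoxeterSystem h X {i}) := R.isPGroup_Upos.to_le (VJ_le_U _)
    have : Group.IsNilpotent (VJ M.toCoxeterSystem h X {i}) := h1.isNilpotent
    infer_instance
  obtain ⟨k, hk⟩ : ∃ k : Fin l, k ≠ i := by
    have : Nontrivial (Fin l) := Fin.nontrivial_iff_two_le.2 hl
    exact exists_ne i
  refine bad_of_normalizes (not_isSolvable_LJ_one hp R hE hEc hcyc) hV (LJ_le_normalizer_VJ R _) ?_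
  intro hle
  have h1 : VJ M.toCoxeterSystem h X {i} ≤ ⊥ := by
    rw [← LJ_inf_VJ R {i}]
    exact le_inf hle le_rfl
  have h2 : X (sr k) ≤ VJ M.toCoxeterSystem h X {i} :=
    RGD.le_Sup ⟨isRoot_sr M.toCoxeterSystem h k, sr_nonneg k, k, hk, by rw [sr_self]; exact one_pos⟩
  exact X_ne_bot R (isRoot_sr M.toCoxeterSystem h k) (le_bot_iff.1 (h2.trans h1))

theorem HasX.of_equiv {p l : ℕ} {M : CoxeterMatrix (Fin l)} {G H : Type*} [Group G] [Group H] (e : G ≃* H)
    (hG : HasX p M G) : HasX p M H := by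
  obtain ⟨A, h, T, n, X, hW, R, hX, i, E, hE, hEc, hcyc⟩ := hG
  refine ⟨A, h, T.map e.toMonoidHom, fun i => e (n i), fun x => (X x).map e.toMonoidHom, hW,
    Nodes.RGDLib.rgd_map_of_injective R e.toMonoidHom e.injective, ?_, i, E.map e.toMonoidHom,
    Subgroup.map_mono hE, ?_, ?_⟩
  · have h1 : (Nodes.RGDLib.G1 M.toCoxeterSystem h X).map e.toMonoidHom =
        Nodes.RGDLib.G1 M.toCoxeterSystem h (fun x => (X x).map e.toMonoidHom) := by
      unfold Nodes.RGDLib.G1 RGD.Sup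
      rw [Subgroup.map_iSup]
    rw [← h1, hX, Subgroup.map_top_of_surjective _ e.surjective]
  · rintro _ ⟨a, ha, rfl⟩ _ ⟨b, hb, rfl⟩
    rw [← map_mul, ← map_mul, hEc a ha b hb]
  · intro hc
    apply hcyc
    exact isCyclic_of_injective (E.equivMapOfInjective e.toMonoidHom e.injective).toMonoidHom
      (E.equivMapOfInjective e.toMonoidHom e.injective).injective

/-- the additive group of a field of non-prime order is not cyclic -/
theorem not_isCyclic_range {F G : Type*} [Field F] [Finite F] [Group G] (f : Multiplicative F →* G)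
    (hf : Function.Injective f) (hF : ¬ (Nat.card F).Prime) : ¬ IsCyclic f.range := by
  intro hc
  have h1 : IsCyclic (Multiplicative F) := by
    exact isCyclic_of_injective (MonoidHom.ofInjective hf).toMonoidHom (MonoidHom.ofInjective hf).injective
  obtain ⟨p, hp⟩ := CharP.exists F
  have hpp : p.Prime := CharP.char_is_prime F p
  obtain ⟨g, hg⟩ := h1.exists_generator
  have h2 : orderOf g = Nat.card (Multiplicative F) := orderOf_eq_card_of_forall_mem_zpowers hg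
  have h3 : g ^ p = 1 := by
    change Multiplicative.ofAdd (p • g.toAdd) = Multiplicative.ofAdd 0
    rw [nsmul_eq_mul, CharP.cast_eq_zero, zero_mul]
  have h4 := orderOf_dvd_of_pow_eq_one h3
  rw [h2, Nat.card_congr Multiplicative.toAdd] at h4
  rcases (Nat.dvd_prime hpp).1 h4 with h5 | h5
  · have := Finite.one_lt_card (α := F)
    omega
  · exact hF (h5 ▸ hpp)

end Cfsg.Agent.H938
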