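import Cfsg.Agent.H938.Five
import Cfsg.Agent.SporRec.Co3.FiveHom
import Cfsg.Prelude.Def_Classification2

/-!
# Subgroups `S_5` generated by four nodes of a Coxeter graph

`Fi22`, `Fi23`, `Fi24'`, `B`, `M` have subgroups `A_5 < S_5`.
-/

set_option autoImplicit false

namespace Cfsg.Agent.H938

open Cfsg Equiv
open scoped commutatorElement

/-- Four elements satisfying the Coxeter relations of type `A_4`, not all equal. -/
theorem sFive_of_cox {Q : Type*} [Group Q] (r : Fin 4 → Q) (h1 : ∀ i, r i * r i = 1)
    (h2 : ∀ i j : Fin 4, i.val + 1 < j.val → r i * r j = r j * r i)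
    (h3 : ∀ i j : Fin 4, i.val + 1 = j.val → r i * r j * r i = r j * r i * r j) (hne : r 0 ≠ r 1) : SFive Q := by
  obtain ⟨f, hf, -⟩ := Cfsg.Agent.SporRec.Co3.FiveHom.exists_hom r h1 h2 h3
  set d : Equiv.Perm (Fin 5) := swap 0 2 * swap 2 1 * swap 1 3 with hd
  set b : Equiv.Perm (Fin 5) := swap 1 2 * swap 2 4 with hb
  have k1 : (d * d) ^ 2 = 1 := by decide +kernel
  have k2 : b ^ 3 = 1 := by decide +kernel
  have k3 : (d * d * b) ^ 5 = 1 := by decide +kernel
  have k4 : d * b * d⁻¹ = d * d * b * (d * d) * b⁻¹ * (d * d) * b := by decide +kernel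
  have k5 : d * d = Cfsg.Agent.SporRec.Co3.FiveHom.tp 0 * Cfsg.Agent.SporRec.Co3.FiveHom.tp 2 := by decide +kernel
  refine ⟨f (d * d), f b, f d, ?_, ?_, ?_, ?_, ?_, ?_⟩
  · rw [← map_pow, k1, map_one]
  · rw [← map_pow, k2, map_one]
  · rw [← map_mul, ← map_pow, k3, map_one]
  · intro h
    rw [k5, map_mul, hf, hf] at h
    have e1 : r 0 = r 2 := by
      rw [mul_eq_one_iff_eq_inv] at h
      rw [h]
      exact inv_eq_of_mul_eq_one_left (h1 2)
    have e2 : r 2 * r 3 = r 3 * r 2 := by
      rw [← e1]
      exact h2 0 3 (by decide)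
    have e3 : r 3 = r 2 := by
      have h4 := h3 2 3 (by decide)
      rw [e2, mul_assoc, h1, mul_one, mul_assoc, e2, ← mul_assoc, h1, one_mul] at h4
      exact h4
    have e4 : r 1 * r 2 = r 2 * r 1 := by
      rw [← e3]
      exact h2 1 3 (by decide)
    have e5 : r 1 = r 2 := by
      have h4 := h3 1 2 (by decide)
      rw [e4, mul_assoc, h1, mul_one, mul_assoc, e4, ← mul_assoc, h1, one_mul] at h4
      exact h4.symm
    exact hne (e1.trans e5.symm)
  · rw [← map_mul]
  · rw [← map_inv, ← map_mul, ← map_mul, k4]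
    simp only [map_mul, map_inv]

section Presented

open Cfsg.Spor

variable {α : Type*} [DecidableEq α] (edges : List (α × ℕ × α)) (extra : List (FreeGroup α))

/-- the image of a generator -/
def nd (x : α) : CoxPresented α edges extra := PresentedGroup.of x

variable {edges extra}

theorem nd_rel {x y : α} (hx : x ∈ coxNodes edges) (hy : y ∈ coxNodes edges) :
    (nd edges extra x * nd edges extra y) ^ coxLabel edges x y = 1 := by
  have h : (FreeGroup.of x * FreeGroup.of y) ^ coxLabel edges x y ∈ coxRelators edges ∪ {r | r ∈ extra} :=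
    Or.inl ⟨x, hx, y, hy, rfl⟩
  exact PresentedGroup.one_of_mem h

theorem nd_sq {x : α} (hx : x ∈ coxNodes edges) : nd edges extra x * nd edges extra x = 1 := by
  have h := nd_rel (extra := extra) hx hx
  unfold coxLabel at h
  rwa [if_pos rfl, pow_one] at h

theorem nd_comm {x y : α} (hx : x ∈ coxNodes edges) (hy : y ∈ coxNodes edges) (h : coxLabel edges x y = 2) :
    nd edges extra x * nd edges extra y = nd edges extra y * nd edges extra x := by
  have h1 := nd_rel (extra := extra) hx hy
  rw [h, pow_two, mul_eq_one_iff_eq_inv, mul_inv_rev, inv_eq_of_mul_eq_one_left (nd_sq hx),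
    inv_eq_of_mul_eq_one_left (nd_sq hy)] at h1
  exact h1

theorem nd_braid {x y : α} (hx : x ∈ coxNodes edges) (hy : y ∈ coxNodes edges) (h : coxLabel edges x y = 3) :
    nd edges extra x * nd edges extra y * nd edges extra x = nd edges extra y * nd edges extra x * nd edges extra y := by
  have h1 := nd_rel (extra := extra) hx hy
  set a := nd edges extra x
  set b := nd edges extra y
  have ha : a⁻¹ = a := inv_eq_of_mul_eq_one_left (nd_sq hx)
  have hb : b⁻¹ = b := inv_eq_of_mul_eq_one_left (nd_sq hy)
  rw [h, pow_succ, pow_two] at h1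
  have h2 : a * b * a * (b * a * b) = 1 := by rw [← h1]; group
  rw [mul_eq_one_iff_eq_inv] at h2
  rw [h2, mul_inv_rev, mul_inv_rev, ha, hb, mul_assoc]

theorem nd_collapse {x y z : α} (hx : x ∈ coxNodes edges) (hy : y ∈ coxNodes edges) (hz : z ∈ coxNodes edges)
    (h2 : coxLabel edges z x = 2) (h3 : coxLabel edges z y = 3) (h : nd edges extra x = nd edges extra y) :
    nd edges extra z = nd edges extra y := by
  have e1 := nd_comm (extra := extra) hz hx h2
  have e2 := nd_braid (extra := extra) hz hy h3
  rw [h] at e1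
  rw [e1, mul_assoc, nd_sq hz, mul_one, mul_assoc, e1, ← mul_assoc, nd_sq hy, one_mul] at e2
  exact e2.symm

theorem nd_mul_mem_commutator {x y : α} (hx : x ∈ coxNodes edges) (hy : y ∈ coxNodes edges)
    (h : coxLabel edges x y = 3) : nd edges extra x * nd edges extra y ∈ commutator (CoxPresented α edges extra) := by
  have h1 := nd_rel (extra := extra) hx hy
  set a := nd edges extra x
  set b := nd edges extra y
  have ha : a⁻¹ = a := inv_eq_of_mul_eq_one_left (nd_sq hx)
  have hb : b⁻¹ = b := inv_eq_of_mul_eq_one_left (nd_sq hy)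
  rw [h, pow_succ, pow_two] at h1
  have h2 : a * b = ⁅b, a⁆ := by
    rw [commutatorElement_def]
    have h3 : a * b * (a * b * (a * b)) = 1 := by rw [← h1]; group
    rw [mul_eq_one_iff_eq_inv] at h3
    rw [h3, mul_inv_rev, mul_inv_rev, ha, hb]
    group
  rw [h2]
  exact Subgroup.commutator_mem_commutator (Subgroup.mem_top b) (Subgroup.mem_top a)

theorem nd_mul_mem_trans {x y z : α} (hy : y ∈ coxNodes edges)
    (h1 : nd edges extra x * nd edges extra y ∈ commutator (CoxPresented α edges extra))
    (h2 : nd edges extra y * nd edges extra z ∈ commutator (CoxPresented α edges extra)) :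
    nd edges extra x * nd edges extra z ∈ commutator (CoxPresented α edges extra) := by
  have h3 : nd edges extra x * nd edges extra z =
      (nd edges extra x * nd edges extra y) * (nd edges extra y * nd edges extra z) := by
    rw [mul_assoc, ← mul_assoc (nd edges extra y), nd_sq hy, one_mul]
  rw [h3]
  exact mul_mem h1 h2

/-- if all the generators are equal, the group is commutative -/
theorem comm_of_all (y : α) (h : ∀ x : α, nd edges extra x = nd edges extra y) (a b : CoxPresented α edges extra) :
    a * b = b * a := by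
  have h1 : ∀ g : CoxPresented α edges extra, g ∈ Subgroup.zpowers (nd edges extra y) := by
    intro g
    have h2 := PresentedGroup.closure_range_of (coxRelators edges ∪ {r | r ∈ extra})
    have h3 : (Subgroup.closure (Set.range (PresentedGroup.of (rels := coxRelators edges ∪ {r | r ∈ extra})))) ≤
        Subgroup.zpowers (nd edges extra y) := by
      rw [Subgroup.closure_le]
      rintro _ ⟨x, rfl⟩
      have h4 : (PresentedGroup.of x : CoxPresented α edges extra) = nd edges extra y := h x
      rw [h4]
      exact Subgroup.mem_zpowers _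
    exact h3 (h2 ▸ Subgroup.mem_top g)
  obtain ⟨i, hi⟩ := Subgroup.mem_zpowers_iff.1 (h1 a)
  obtain ⟨j, hj⟩ := Subgroup.mem_zpowers_iff.1 (h1 b)
  rw [← hi, ← hj]
  exact ((Commute.refl _).zpow_zpow i j).eq

end Presented

end Cfsg.Agent.H938
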