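import Cfsg.Agent.H938.Five
import Cfsg.Agent.SporadicStructure.M11InvPerms
import Cfsg.Agent.MTwelveType.SylowModel

/-!
# The Mathieu groups have subgroups `A_5 < S_5`
-/

set_option autoImplicit false
open scoped Pointwise
open Cfsg

namespace Cfsg.Agent.H938.Mathieu

open Cfsg.Agent.SporadicStructure.M11InvPerms

/-- table of `dE` -/
def tdE : List ℕ := [0, 8, 18, 3, 4, 15, 6, 22, 16, 2, 17, 5, 1, 9, 23, 21, 12, 20, 13, 10, 19, 11, 7, 14]
/-- table of the inverse of `dE` -/
def udE : List ℕ := [0, 12, 9, 3, 4, 11, 6, 22, 1, 13, 19, 21, 16, 18, 23, 5, 8, 10, 2, 20, 17, 15, 7, 14]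
/-- certificate for `dE` -/
def cdE : List ℕ := [1, 3102, 2456, 1119, 1498, 3626, 3260, 929, 3080, 1340, 3208, 2068, 2587, 3910, 3618, 1302, 563, 1858, 1765, 2564, 1622, 3839, 1997]
/-- an element of order four of `M11` -/
def dE : Equiv.Perm GolayPt where
  toFun := tabFun tdE
  invFun := tabFun udE
  left_inv := by unfold Function.LeftInverse; decide +kernel
  right_inv := by unfold Function.RightInverse Function.LeftInverse; decide +kernel

set_option maxRecDepth 100000 in
theorem dE_mem : dE ∈ M24 := mem_M24_of_cert dE (fun t => cdE.getD t.val 0) (by decide +kernel)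

/-- table of `bE` -/
def tbE : List ℕ := [0, 1, 9, 18, 3, 14, 12, 7, 8, 13, 23, 10, 16, 2, 20, 21, 6, 17, 4, 15, 5, 19, 22, 11]
/-- table of the inverse of `bE` -/
def ubE : List ℕ := [0, 1, 13, 4, 18, 20, 16, 7, 8, 2, 11, 23, 6, 9, 5, 19, 12, 17, 3, 21, 14, 15, 22, 10]
/-- certificate for `bE` -/
def cbE : List ℕ := [1, 3916, 3856, 262, 2344, 122, 3377, 3327, 2146, 2397, 3876, 1956, 1748, 1138, 225, 3325, 1022, 2097, 1316, 352, 3263, 3794, 804]
/-- an element of order three of `M11` -/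
def bE : Equiv.Perm GolayPt where
  toFun := tabFun tbE
  invFun := tabFun ubE
  left_inv := by unfold Function.LeftInverse; decide +kernel
  right_inv := by unfold Function.RightInverse Function.LeftInverse; decide +kernel

set_option maxRecDepth 100000 in
theorem bE_mem : bE ∈ M24 := mem_M24_of_cert bE (fun t => cbE.getD t.val 0) (by decide +kernel)

/-- table of `dT` -/
def tdT : List ℕ := [0, 11, 19, 3, 13, 1, 17, 9, 21, 14, 18, 15, 8, 6, 20, 5, 12, 4, 10, 2, 7, 16, 22, 23]
/-- table of the inverse of `dT` -/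
def udT : List ℕ := [0, 5, 19, 3, 17, 15, 13, 20, 12, 7, 18, 1, 16, 4, 9, 11, 21, 6, 10, 2, 14, 8, 22, 23]
/-- certificate for `dT` -/
def cdT : List ℕ := [793, 1486, 580, 584, 153, 704, 1646, 2015, 1908, 1984, 189, 614, 498, 1281, 810, 579, 1197, 1383, 991, 443, 358, 233, 231]
/-- an element of order four of `M22` -/
def dT : Equiv.Perm GolayPt where
  toFun := tabFun tdT
  invFun := tabFun udT
  left_inv := by unfold Function.LeftInverse; decide +kernel
  right_inv := by unfold Function.RightInverse Function.LeftInverse; decide +kernel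

set_option maxRecDepth 100000 in
theorem dT_mem : dT ∈ M24 := mem_M24_of_cert dT (fun t => cdT.getD t.val 0) (by decide +kernel)

/-- table of `bT` -/
def tbT : List ℕ := [0, 21, 5, 8, 1, 12, 19, 22, 15, 7, 10, 16, 2, 11, 14, 3, 13, 6, 18, 17, 20, 4, 9, 23]
/-- table of the inverse of `bT` -/
def ubT : List ℕ := [0, 4, 12, 15, 21, 2, 17, 9, 3, 22, 10, 13, 5, 16, 14, 8, 11, 19, 18, 6, 20, 1, 7, 23]
/-- certificate for `bT` -/
def cbT : List ℕ := [9, 407, 215, 1232, 111, 1067, 55, 976, 798, 1002, 1872, 1464, 1769, 667, 1522, 2013, 1519, 1520, 1185, 1456, 2011, 154, 52]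
/-- an element of order three of `M22` -/
def bT : Equiv.Perm GolayPt where
  toFun := tabFun tbT
  invFun := tabFun ubT
  left_inv := by unfold Function.LeftInverse; decide +kernel
  right_inv := by unfold Function.RightInverse Function.LeftInverse; decide +kernel

set_option maxRecDepth 100000 in
theorem bT_mem : bT ∈ M24 := mem_M24_of_cert bT (fun t => cbT.getD t.val 0) (by decide +kernel)

theorem dE_dd : ∀ p ∈ dd, dE p ∈ dd := by decide +kernel
theorem bE_dd : ∀ p ∈ dd, bE p ∈ dd := by decide +kernel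

theorem dE_mem11 : dE ∈ Spor.M11 :=
  Subgroup.mem_inf.2 ⟨Cfsg.Agent.MTwelveType.SylowModel.mem_M12 dE_mem dE_dd, by
    rw [MulAction.mem_stabilizer_iff]; exact (by decide +kernel : dE (some 0) = some 0)⟩

theorem bE_mem11 : bE ∈ Spor.M11 :=
  Subgroup.mem_inf.2 ⟨Cfsg.Agent.MTwelveType.SylowModel.mem_M12 bE_mem bE_dd, by
    rw [MulAction.mem_stabilizer_iff]; exact (by decide +kernel : bE (some 0) = some 0)⟩

theorem dT_mem22 : dT ∈ Spor.M22 :=
  Subgroup.mem_inf.2 ⟨Subgroup.mem_inf.2 ⟨dT_mem, by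
    rw [MulAction.mem_stabilizer_iff]; exact (by decide +kernel : dT none = none)⟩, by
    rw [MulAction.mem_stabilizer_iff]; exact (by decide +kernel : dT (some 0) = some 0)⟩

theorem bT_mem22 : bT ∈ Spor.M22 :=
  Subgroup.mem_inf.2 ⟨Subgroup.mem_inf.2 ⟨bT_mem, by
    rw [MulAction.mem_stabilizer_iff]; exact (by decide +kernel : bT none = none)⟩, by
    rw [MulAction.mem_stabilizer_iff]; exact (by decide +kernel : bT (some 0) = some 0)⟩

theorem sFive_of_perm {K : Subgroup (Equiv.Perm GolayPt)} {b d : Equiv.Perm GolayPt} (hb : b ∈ K) (hd : d ∈ K)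
    (h1 : ∀ p, (d * d) ((d * d) p) = p) (h2 : ∀ p, b (b (b p)) = p)
    (h3 : ∀ p, (d * d * b) ((d * d * b) ((d * d * b) ((d * d * b) ((d * d * b) p)))) = p)
    (h4 : ∃ p, (d * d) p ≠ p)
    (h5 : ∀ p, (d * b) p = (d * d * b * (d * d) * b.symm * (d * d) * b * d) p) : SFive K := by
  refine ⟨⟨d * d, mul_mem hd hd⟩, ⟨b, hb⟩, ⟨d, hd⟩, ?_, ?_, ?_, ?_, rfl, ?_⟩
  · apply Subtype.ext
    refine Equiv.ext fun p => ?_
    rw [pow_two]
    exact h1 p
  · apply Subtype.ext
    refine Equiv.ext fun p => ?_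
    simp only [pow_succ, pow_zero, one_mul]
    exact h2 p
  · apply Subtype.ext
    refine Equiv.ext fun p => ?_
    simp only [pow_succ, pow_zero, one_mul]
    exact h3 p
  · intro h
    obtain ⟨p, hp⟩ := h4
    apply hp
    have := congrArg (fun x : K => (x : Equiv.Perm GolayPt) p) h
    exact this
  · rw [mul_inv_eq_iff_eq_mul]
    apply Subtype.ext
    exact Equiv.ext fun p => h5 p

theorem sFive_M11 : SFive Spor.M11 :=
  sFive_of_perm bE_mem11 dE_mem11 (by decide +kernel) (by decide +kernel) (by decide +kernel)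
    ⟨some 1, by decide +kernel⟩ (by decide +kernel)

theorem sFive_M22 : SFive Spor.M22 :=
  sFive_of_perm bT_mem22 dT_mem22 (by decide +kernel) (by decide +kernel) (by decide +kernel)
    ⟨some 1, by decide +kernel⟩ (by decide +kernel)

theorem sFive_mono {K L : Subgroup (Equiv.Perm GolayPt)} (h : K ≤ L) (hK : SFive K) : SFive L :=
  hK.map (Subgroup.inclusion h) (Subgroup.inclusion_injective h)

theorem sFive_M12 : SFive Spor.M12 := sFive_mono inf_le_left sFive_M11
theorem sFive_M24 : SFive M24 := sFive_mono inf_le_left sFive_M12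
theorem sFive_M23 : SFive Spor.M23 := sFive_mono inf_le_left sFive_M22

end Cfsg.Agent.H938.Mathieu

namespace Cfsg.Agent.H938

theorem SFive.of_iso {G H : Type*} [Group G] [Group H] (h : SFive H) (e : G ≃* H) : SFive G :=
  h.map e.symm.toMonoidHom e.symm.injective

variable {G : Type*} [Group G] [Finite G] [IsSimpleGroup G]

theorem bad_of_M11 (h : Spor.IsoM11 G) : Bad G := by
  obtain ⟨e⟩ := h
  exact bad_of_sFive (Mathieu.sFive_M11.of_iso e)

theorem bad_of_M12 (h : Spor.IsoM12 G) : Bad G := by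
  obtain ⟨e⟩ := h
  exact bad_of_sFive (Mathieu.sFive_M12.of_iso e)

theorem bad_of_M22 (h : Spor.IsoM22 G) : Bad G := by
  obtain ⟨e⟩ := h
  exact bad_of_sFive (Mathieu.sFive_M22.of_iso e)

theorem bad_of_M23 (h : Spor.IsoM23 G) : Bad G := by
  obtain ⟨e⟩ := h
  exact bad_of_sFive (Mathieu.sFive_M23.of_iso e)

theorem bad_of_M24 (h : Spor.IsoM24 G) : Bad G := by
  obtain ⟨e⟩ := h
  exact bad_of_sFive (Mathieu.sFive_M24.of_iso e)

end Cfsg.Agent.H938
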