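import Cfsg.Agent.H938.PSLTwo
import Cfsg.Agent.Classification.MinSimpleSuzuki
import Cfsg.Agent.Classification.ThreePrimes
import Cfsg.Agent.S0488

/-!
# Suzuki groups: chains of insoluble subgroups, and the list
-/

set_option autoImplicit false
set_option linter.unusedSectionVars false

namespace Cfsg.Agent.H938

open Cfsg Cfsg.Agent.Classification.MinSimpleSuzuki

section Hom

variable {K : Type*} [Field K] [Fintype K] {F : Type*} [Field F] [Fintype F]

theorem exists_hom_Sz {k c m : ℕ} (hk : 1 ≤ k) (hc : 1 ≤ c) (hK : Fintype.card K = 2 ^ (2 * k + 1))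
    (hF : Fintype.card F = 2 ^ (2 * m + 1)) (hm : 2 * m + 1 = (2 * k + 1) * (2 * c + 1)) :
    ∃ φ : ↥(Cfsg.Lie.Sz K (2 ^ (k + 1))) →* ↥(Cfsg.Lie.Sz F (2 ^ (m + 1))), Function.Injective φ ∧ φ.range ≠ ⊤ := by
  obtain ⟨f⟩ := Cfsg.Agent.ClassicalGeometry.PSL2Basic.exists_ringHom_of_card_pow
    (K := K) (L := F) (m := 2 * c + 1) (by rw [hK, hF, ← pow_mul, hm])
  have he : ∀ x : K, x ^ (2 ^ (k + 1)) = x ^ (2 ^ (m + 1)) := by
    intro x
    have h1 : m + 1 = (2 * k + 1) * c + (k + 1) := by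
      have h2 : 2 * (m + 1) = 2 * ((2 * k + 1) * c + (k + 1)) := by
        have : (2 * k + 1) * (2 * c + 1) = 2 * ((2 * k + 1) * c + k) + 1 := by ring
        omega
      omega
    have h2 : x ^ 2 ^ ((2 * k + 1) * c) = x := by
      rw [pow_mul, ← hK, FiniteField.pow_card_pow]
    rw [h1, pow_add 2 ((2 * k + 1) * c) (k + 1), pow_mul x (2 ^ ((2 * k + 1) * c)), h2]
  have hle := map_Sz_le f he
  set Φ : GL (Fin 4) K →* GL (Fin 4) F := Matrix.GeneralLinearGroup.map f with hΦ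
  have hinjΦ : Function.Injective Φ := by
    intro x y hxy
    apply Units.ext
    have h0 : (x : Matrix (Fin 4) (Fin 4) K).map f = (y : Matrix (Fin 4) (Fin 4) K).map f := by
      have h1 : ((Φ x : GL (Fin 4) F) : Matrix (Fin 4) (Fin 4) F) = (Φ y : GL (Fin 4) F) := by
        rw [hxy]
      exact h1
    exact Matrix.map_injective f.injective h0
  let φ : ↥(Cfsg.Lie.Sz K (2 ^ (k + 1))) →* ↥(Cfsg.Lie.Sz F (2 ^ (m + 1))) :=
    (Φ.comp (Cfsg.Lie.Sz K (2 ^ (k + 1))).subtype).codRestrict _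
      (fun x => hle ⟨x.1, x.2, rfl⟩)
  have hφ : Function.Injective φ := by
    intro x y hxy
    apply Subtype.ext
    exact hinjΦ (congrArg Subtype.val hxy)
  refine ⟨φ, hφ, ?_⟩
  intro htop
  have hm1 : 1 ≤ m := by
    have : (2 * 1 + 1) * (2 * 1 + 1) ≤ (2 * k + 1) * (2 * c + 1) := Nat.mul_le_mul (by omega) (by omega)
    omega
  have h1 : Nat.card ↥(Cfsg.Lie.Sz K (2 ^ (k + 1))) = Nat.card ↥(Cfsg.Lie.Sz F (2 ^ (m + 1))) := by
    rw [Nat.card_congr (MonoidHom.ofInjective hφ).toEquiv, htop]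
    exact Subgroup.card_top
  rw [(Cfsg.Agent.S1163.result hk hK).1, (Cfsg.Agent.S1163.result hm1 hF).1] at h1
  have h2 : 2 ^ (2 * k + 1) < 2 ^ (2 * m + 1) := by
    refine Nat.pow_lt_pow_right (by norm_num) ?_
    rw [hm]
    nlinarith
  have h3 : 2 ^ 1 ≤ 2 ^ (2 * k + 1) := Nat.pow_le_pow_right (by norm_num) (by omega)
  generalize 2 ^ (2 * m + 1) = Q at *
  generalize 2 ^ (2 * k + 1) = q at *
  have h4 : q ^ 2 * (q - 1) * (q ^ 2 + 1) < Q ^ 2 * (Q - 1) * (Q ^ 2 + 1) := by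
    have h5 : q ^ 2 < Q ^ 2 := Nat.pow_lt_pow_left h2 (by norm_num)
    apply Nat.mul_lt_mul_of_lt_of_le
    · apply Nat.mul_lt_mul_of_lt_of_le h5 (by omega) (by omega)
    · omega
    · omega
  omega

end Hom

theorem bad_of_Sz {F : Type*} [Field F] [Fintype F] {m a b c : ℕ} (ha : 1 ≤ a) (hb : 1 ≤ b) (hc : 1 ≤ c)
    (hF : Fintype.card F = 2 ^ (2 * m + 1)) (hm : 2 * m + 1 = (2 * a + 1) * (2 * b + 1) * (2 * c + 1)) :
    Bad ↥(Cfsg.Lie.Sz F (2 ^ (m + 1))) := by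
  obtain ⟨k, hk⟩ : ∃ k, (2 * a + 1) * (2 * b + 1) = 2 * k + 1 := ⟨2 * a * b + a + b, by ring⟩
  have hk1 : 1 ≤ k := by nlinarith
  have hfact : Fact (Nat.Prime 2) := ⟨Nat.prime_two⟩
  have i1 : Fintype (GaloisField 2 (2 * a + 1)) := Fintype.ofFinite _
  have i2 : Fintype (GaloisField 2 (2 * k + 1)) := Fintype.ofFinite _
  have e1 : Fintype.card (GaloisField 2 (2 * a + 1)) = 2 ^ (2 * a + 1) := by
    rw [Fintype.card_eq_nat_card]
    exact GaloisField.card 2 _ (by omega)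
  have e2 : Fintype.card (GaloisField 2 (2 * k + 1)) = 2 ^ (2 * k + 1) := by
    rw [Fintype.card_eq_nat_card]
    exact GaloisField.card 2 _ (by omega)
  obtain ⟨φ, hφ, hφt⟩ := exists_hom_Sz ha hb e1 e2 hk.symm
  obtain ⟨ψ, hψ, hψt⟩ := exists_hom_Sz (c := c) hk1 hc e2 hF (by rw [hm, hk])
  refine bad_of_hom ψ hψ hψt (L := φ.range) ?_ hφt
  intro hs
  exact not_isSolvable_Sz ha e1 (Group.isSolvable_of_isSolvable_injective
    (f := (MonoidHom.ofInjective hφ).toMonoidHom) (MonoidHom.ofInjective hφ).injective)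

/-! ### Prime exponent: minimal simple -/

theorem three_dvd_psl_three {F : Type*} [Field F] [Fintype F] (hF : Fintype.card F = 3) :
    3 ∣ Nat.card (Matrix.ProjectiveSpecialLinearGroup (Fin 3) F) := by
  have h3 : CharP F 3 := by
    obtain ⟨p, hc⟩ := CharP.exists F
    obtain ⟨n, hp, hn⟩ := FiniteField.card F p
    have h1 : p ∣ 3 := by
      rw [← hF, hn]
      exact dvd_pow_self p n.ne_zero
    rw [← (Nat.prime_dvd_prime_iff_eq hp Nat.prime_three).1 h1]
    exact hc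
  have h01 : (0 : Fin 3) ≠ 1 := by decide
  set t : Matrix.SpecialLinearGroup (Fin 3) F := Matrix.SpecialLinearGroup.transvection h01 (1 : F) with ht
  have ht3 : t ^ 3 = 1 := by
    have : t ^ 3 = t * t * t := by rw [pow_succ, pow_two]
    rw [this, ht, ← Matrix.SpecialLinearGroup.transvection_add, ← Matrix.SpecialLinearGroup.transvection_add]
    have h4 : (1 : F) + 1 + 1 = 0 := by
      have := CharP.cast_eq_zero F 3
      rw [← this]
      norm_num
    rw [h4, Matrix.SpecialLinearGroup.transvection_coeff_zero]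
  have ho : orderOf (QuotientGroup.mk t : Matrix.ProjectiveSpecialLinearGroup (Fin 3) F) = 3 := by
    have : Fact (Nat.Prime 3) := ⟨Nat.prime_three⟩
    refine orderOf_eq_prime ?_ ?_
    · rw [← QuotientGroup.mk_pow, ht3]
      rfl
    · intro h
      rw [QuotientGroup.eq_one_iff, ht, Matrix.SpecialLinearGroup.transvection_mem_center_iff] at h
      exact one_ne_zero h
  have h5 := orderOf_dvd_natCard (QuotientGroup.mk t : Matrix.ProjectiveSpecialLinearGroup (Fin 3) F)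
  rwa [ho] at h5

theorem three_dvd_psl_two (F : Type*) [Field F] [Fintype F] :
    3 ∣ Nat.card (Matrix.ProjectiveSpecialLinearGroup (Fin 2) F) := by
  have h := Cfsg.Agent.ClassicalGeometry.PSL2Basic.card_PSL2_gcd (F := F)
  have h1 : 3 ∣ Fintype.card F * (Fintype.card F ^ 2 - 1) := by
    generalize Fintype.card F = q
    by_cases h0 : 3 ∣ q
    · exact h0.mul_right _
    · apply Dvd.dvd.mul_left
      have h2 : q % 3 = 1 ∨ q % 3 = 2 := by omega
      have h3 : q ^ 2 ≡ 1 [MOD 3] := by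
        rcases h2 with h | h
        · have : q ≡ 1 [MOD 3] := h
          exact this.pow 2
        · have : q ≡ 2 [MOD 3] := h
          exact (this.pow 2).trans (by decide)
      exact (Nat.modEq_iff_dvd' (Nat.one_le_pow _ _ (by omega))).mp h3.symm
  rw [← h] at h1
  refine (Nat.Coprime.dvd_mul_right ?_).1 h1
  have h2 : Nat.gcd 2 (Fintype.card F - 1) ∣ 2 := Nat.gcd_dvd_left _ _
  exact Nat.Coprime.coprime_dvd_right h2 (by norm_num)

/-- the order of `Sz(q)` is not divisible by `3` -/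
theorem three_not_dvd {p : ℕ} (hp : Odd p) : ¬ 3 ∣ (2 ^ p) ^ 2 * (2 ^ p - 1) * ((2 ^ p) ^ 2 + 1) := by
  have h2 : 2 ^ p % 3 = 2 := by
    obtain ⟨k, rfl⟩ := hp
    rw [pow_add, pow_mul]
    have : (2 ^ 2) ^ k ≡ 1 ^ k [MOD 3] := Nat.ModEq.pow k (by decide)
    have h3 := this.mul_right (2 ^ 1)
    rw [one_pow, one_mul] at h3
    exact h3
  generalize 2 ^ p = q at h2
  intro h
  rcases (Nat.prime_three.dvd_mul).1 h with h | h
  · rcases (Nat.prime_three.dvd_mul).1 h with h | h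
    · have := Nat.prime_three.dvd_of_dvd_pow h
      omega
    · omega
  · have h3 : q ^ 2 ≡ 1 [MOD 3] := by
      have : q ≡ 2 [MOD 3] := h2
      exact (this.pow 2).trans (by decide)
    have h4 : (q ^ 2 + 1) % 3 = 2 := by
      have : q ^ 2 % 3 = 1 := h3
      omega
    omega

/-- **`Sz(2^p)`, `p` prime: every proper subgroup is soluble.** -/
theorem isSolvable_of_prime {F : Type*} [Field F] [Fintype F] {m : ℕ} (hm : 1 ≤ m)
    (hF : Fintype.card F = 2 ^ (2 * m + 1)) (hp : (2 * m + 1).Prime)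
    {H : Subgroup ↥(Cfsg.Lie.Sz F (2 ^ (m + 1)))} (hH : H ≠ ⊤) : Group.IsSolvable H := by
  by_contra hs
  have hcard := (Cfsg.Agent.S1163.result hm hF).1
  have hfin : Finite ↥(Cfsg.Lie.Sz F (2 ^ (m + 1))) := by
    apply Nat.finite_of_card_ne_zero
    rw [hcard]
    have h2 : 0 < 2 ^ (2 * m + 1) - 1 := by
      have : 2 ^ 1 ≤ 2 ^ (2 * m + 1) := Nat.pow_le_pow_right (by norm_num) (by omega)
      omega
    positivity
  obtain ⟨H1, N, hN, hmin⟩ := Cfsg.Agent.Classification.ThreePrimes.exists_section hs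
  have hdvd : Nat.card (H1 ⧸ N) ∣ Nat.card ↥(Cfsg.Lie.Sz F (2 ^ (m + 1))) :=
    (Subgroup.card_quotient_dvd_card N).trans ((Subgroup.card_subgroup_dvd_card H1).trans
      (Subgroup.card_subgroup_dvd_card H))
  have h3 : ¬ 3 ∣ Nat.card ↥(Cfsg.Lie.Sz F (2 ^ (m + 1))) := by
    rw [hcard]
    exact three_not_dvd ⟨m, rfl⟩
  have h3' : ¬ 3 ∣ Nat.card (H1 ⧸ N) := fun h => h3 (h.trans hdvd)
  rcases Cfsg.Agent.S0488.result hmin with ⟨-, -, K, _, _, -, ⟨e⟩⟩ | ⟨-, -, -, K, _, _, -, ⟨e⟩⟩ |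
    ⟨-, -, -, K, _, _, -, ⟨e⟩⟩ | ⟨K, _, _, hK, ⟨e⟩⟩ | ⟨-, r, hr, hc⟩
  · exact h3' (by rw [Nat.card_congr e.toEquiv]; exact three_dvd_psl_two K)
  · exact h3' (by rw [Nat.card_congr e.toEquiv]; exact three_dvd_psl_two K)
  · exact h3' (by rw [Nat.card_congr e.toEquiv]; exact three_dvd_psl_two K)
  · exact h3' (by rw [Nat.card_congr e.toEquiv]; exact three_dvd_psl_three hK)
  · have hr2 : r ≠ 2 := by
      rintro rfl
      apply h3'
      rw [hc]
      norm_num
    have hro : Odd r := hr.odd_of_ne_two hr2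
    set p := 2 * m + 1 with hpdef
    have h4 : 2 ^ r - 1 ∣ 2 ^ (4 * p) - 1 := by
      have h5 : 2 ^ r - 1 ∣ (2 ^ p) ^ 2 * (2 ^ (4 * p) - 1) := by
        have h6 : 2 ^ r - 1 ∣ (2 ^ p) ^ 2 * (2 ^ p - 1) * ((2 ^ p) ^ 2 + 1) := by
          rw [← hcard]
          refine Dvd.dvd.trans ?_ hdvd
          rw [hc]
          exact dvd_mul_left _ _
        refine h6.trans ?_
        have h7 : 2 ^ (4 * p) - 1 = (2 ^ p - 1) * ((2 ^ p) ^ 2 + 1) * (2 ^ p + 1) := by
          have h8 : 1 ≤ 2 ^ p := Nat.one_le_pow _ _ (by norm_num)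
          have h9 : 2 ^ (4 * p) = (2 ^ p) ^ 4 := by rw [← pow_mul, mul_comm]
          rw [h9]
          obtain ⟨u, hu⟩ : ∃ u, 2 ^ p = u + 1 := ⟨2 ^ p - 1, by omega⟩
          rw [hu]
          have : (u + 1) ^ 4 = (u + 1 - 1) * ((u + 1) ^ 2 + 1) * (u + 1 + 1) + 1 := by
            rw [Nat.add_sub_cancel]; ring
          omega
        rw [h7]
        exact ⟨2 ^ p + 1, by ring⟩
      refine Nat.Coprime.dvd_of_dvd_mul_left ?_ h5
      apply Nat.Coprime.pow_right
      apply Nat.Coprime.pow_right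
      rw [Nat.coprime_two_right]
      obtain ⟨k, hk⟩ := Nat.exists_eq_succ_of_ne_zero hr.ne_zero
      refine ⟨2 ^ k - 1, ?_⟩
      have h8 : 1 ≤ 2 ^ k := Nat.one_le_pow _ _ (by norm_num)
      rw [hk, pow_succ]
      omega
    have h5 : r ∣ 4 * p := by
      have h6 := Nat.pow_sub_one_gcd_pow_sub_one 2 r (4 * p)
      rw [Nat.gcd_eq_left h4] at h6
      have h7 : 2 ^ r = 2 ^ r.gcd (4 * p) := by
        have h8 : 1 ≤ 2 ^ r := Nat.one_le_pow _ _ (by norm_num)
        have h9 : 1 ≤ 2 ^ r.gcd (4 * p) := Nat.one_le_pow _ _ (by norm_num)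
        omega
      have h8 := Nat.pow_right_injective (le_refl 2) h7
      rw [h8]
      exact Nat.gcd_dvd_right _ _
    have h6 : r = p := by
      rcases (hr.dvd_mul).1 h5 with h | h
      · exfalso
        have h7 : r ∣ 2 ^ 2 := by simpa using h
        exact hr2 ((Nat.prime_dvd_prime_iff_eq hr Nat.prime_two).1 (hr.dvd_of_dvd_pow h7))
      · exact (Nat.prime_dvd_prime_iff_eq hr hp).1 h
    apply hH
    apply Subgroup.eq_top_of_card_eq
    apply le_antisymm (Subgroup.card_le_card_group H)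
    have h7 : Nat.card (H1 ⧸ N) ≤ Nat.card H :=
      Nat.le_of_dvd Nat.card_pos ((Subgroup.card_quotient_dvd_card N).trans (Subgroup.card_subgroup_dvd_card H1))
    refine le_trans (le_of_eq ?_) h7
    rw [hcard, hc, h6]
    ring

/-- **The list for the Suzuki groups.** -/
theorem suz_list {F : Type*} [Field F] [Fintype F] {m : ℕ} (hm : 1 ≤ m) (hF : Fintype.card F = 2 ^ (2 * m + 1)) :
    Bad ↥(Cfsg.Lie.Sz F (2 ^ (m + 1))) ∨
      (∀ H : Subgroup ↥(Cfsg.Lie.Sz F (2 ^ (m + 1))), H ≠ ⊤ → Group.IsSolvable H) ∨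
      ∃ r s : ℕ, r.Prime ∧ s.Prime ∧ Odd r ∧ Odd s ∧ 2 * m + 1 = r * s := by
  by_cases hp : (2 * m + 1).Prime
  · exact Or.inr (Or.inl fun H hH => isSolvable_of_prime hm hF hp hH)
  obtain ⟨r, n, hr, hn, hrn, -⟩ := exists_fac (show 2 ≤ 2 * m + 1 by omega) hp
  have ho : Odd (r * n) := by rw [← hrn]; exact ⟨m, rfl⟩
  obtain ⟨hro, hno⟩ := Nat.odd_mul.1 ho
  by_cases hnp : n.Prime
  · exact Or.inr (Or.inr ⟨r, n, hr, hnp, hro, hno, hrn⟩)
  obtain ⟨s, t, hs, ht, hst, -⟩ := exists_fac hn hnp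
  rw [hst, Nat.odd_mul] at hno
  obtain ⟨a, rfl⟩ := hro
  obtain ⟨⟨b, rfl⟩, ⟨c, rfl⟩⟩ := hno
  have := hr.two_le
  have := hs.two_le
  exact Or.inl (bad_of_Sz (a := a) (b := b) (c := c) (by omega) (by omega) (by omega) hF
    (by rw [hrn, hst, mul_assoc]))

end Cfsg.Agent.H938
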