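import Cfsg.Agent.H938.Bad
import Cfsg.Agent.KFacts.TwF4.Perf

/-!
# The groups `²F₄(q)`, `q ≥ 8`: chains of insoluble subgroups
-/

set_option autoImplicit false
set_option linter.unusedSectionVars false

namespace Cfsg.Agent.H938

open Cfsg Cfsg.Lie
open Cfsg.Agent.SplitTwo Cfsg.Agent.SplitTwo.ZS Cfsg.Agent.TitsThree.RankTwoZ Cfsg.Agent.SplitTwo.RootSysZ
open Cfsg.Agent.KFacts.TwF4 Cfsg.Agent.KFacts.TwF4.Arc Cfsg.Agent.KFacts.TwF4.Inv Cfsg.Agent.KFacts.TwF4.SylU
open Cfsg.Agent.KFacts.TwF4.Perf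

universe v

section coord

variable {F : Type*} [Field F] {σ : F →+* F} {G : Type v} [Group G] (S : Full σ G) [Finite F] [Finite G]

theorem bad_of_full [IsSimpleGroup G] (hF : ∃ c : Fˣ, c ≠ 1) (hR : S.R.p = 2) : Bad G := by
  have ho : S.o 2 1 ≠ 1 := fun h => one_ne_zero (S.o_eq_one h)
  -- `LO` is insoluble
  have hL : ¬ Group.IsSolvable S.LO := by
    intro hs
    have h2 : IsPGroup 2 S.NO := two_NO S hR
    have hN : Group.IsSolvable S.NO := by
      have : Fact (Nat.Prime 2) := ⟨Nat.prime_two⟩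
      have : Group.IsNilpotent S.NO := h2.isNilpotent
      infer_instance
    have h3 : Group.IsSolvable (S.NO ⊔ S.LO : Subgroup G) :=
      isSolvable_sup hN hs fun b hb a ha => NO_norm S (Subgroup.mem_sup_left hb) ha
    have h4 : Group.IsSolvable S.HO := by
      have e : S.HO = S.NO ⊔ S.LO := sup_comm _ _
      rw [e]; exact h3
    have h5 := eq_bot_of_perfect h4 (HO_perfect S hF)
    have h6 : S.o 0 1 ∈ S.HO := X1_HO S (S.mX1 1)
    rw [h5, Subgroup.mem_bot] at h6
    exact one_ne_zero (S.o_eq_one h6)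
  obtain ⟨c, hc⟩ := hF
  set t := S.h 1 c with ht
  have htT : t ∈ S.T := S.mem_T.2 ⟨_, _, rfl⟩
  refine bad_of_mem_normalizer hL ?_ (x := t) ?_ ?_
  · intro h
    apply ho
    have h1 : S.o 2 1 ∈ Subgroup.center G := by
      rw [Subgroup.mem_center_iff]
      intro g
      have h2 : g ∈ S.LO := by rw [h]; trivial
      exact S.mem_centralizer_X5.1 (S.LO_le_cent h2) 1
    have h3 : Subgroup.center G = ⊥ ∨ Subgroup.center G = ⊤ :=
      IsSimpleGroup.eq_bot_or_eq_top_of_normal _ inferInstance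
    rcases h3 with h3 | h3
    · rwa [h3, Subgroup.mem_bot] at h1
    · exfalso
      apply hL
      rw [h]
      have : ∀ a b : (⊤ : Subgroup G), a * b = b * a := by
        intro a b
        apply Subtype.ext
        have h4 : (b : G) ∈ Subgroup.center G := by rw [h3]; trivial
        exact (Subgroup.mem_center_iff.1 h4 a)
      exact Group.isSolvable_of_comm this
  · rw [Subgroup.mem_normalizer_iff]
    intro x
    refine ⟨fun hx => S.T_conj_LO htT hx, fun hx => ?_⟩
    have h1 := S.T_conj_LO (inv_mem htT) hx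
    have e : t⁻¹ * (t * x * t⁻¹) * t⁻¹⁻¹ = x := by group
    rwa [e] at h1
  · intro h
    have h1 := S.mem_centralizer_X5.1 (S.LO_le_cent h) 1
    have h2 : t * S.o 2 1 * t⁻¹ = S.o 2 1 := by rw [h1, mul_inv_cancel_right]
    rw [ht, S.h_o] at h2
    have h3 := S.injO 2 h2
    rw [mul_one] at h3
    have h4 : Units.map (σ : F →* F) c / 1 * (c / Units.map (σ : F →* F) 1) = 1 := Units.ext h3
    rw [map_one, div_one, div_one, mul_comm] at h4
    exact hc (S.unit_eq_one h4)

end coord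

theorem bad_of_2F4 {G : Type v} [Group G] [IsSimpleGroup G] (h : Iso2F4 G) : Bad G := by
  obtain ⟨F, _, _, m, hm, hK, ⟨e⟩⟩ := h
  obtain ⟨φ, hφ⟩ := Cfsg.Agent.ChevalleyStructure.TwF4.TwistedFix.exists_rln hK
  have := Cfsg.Agent.ChevalleyStructure.TwF4.Twisted.charP_two hK
  have : Finite ↥(twistedF4 F (2 ^ m)) := inferInstance
  have hs : IsSimpleGroup ↥(twistedF4 F (2 ^ m)) := e.symm.isSimpleGroup
  have h8 : 8 ≤ Nat.card F := by
    rw [Nat.card_eq_fintype_card, hK]
    calc 8 = 2 ^ 3 := by norm_num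
      _ ≤ 2 ^ (2 * m + 1) := Nat.pow_le_pow_right (by norm_num) (by omega)
  have hF : ∃ c : Fˣ, c ≠ 1 := by
    by_contra hcon
    push Not at hcon
    have h2 : Nat.card Fˣ = Nat.card F - 1 := Nat.card_units F
    have h3 : Nat.card Fˣ ≤ 1 := by
      have : Subsingleton Fˣ := ⟨fun x y => by rw [hcon x, hcon y]⟩
      exact Finite.card_le_one_iff_subsingleton.2 this
    omega
  exact Bad.of_equiv e.symm (bad_of_full (Cfsg.Agent.KFacts.TwF4.Inst.full hK hφ) hF rfl)

end Cfsg.Agent.H938
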